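import Mathlib
import Cfsg.Agent.Lib.Helper8.IsoInv

set_option autoImplicit false

namespace Cfsg.Agent.Lib.Helper8.Dih

open Cfsg.Agent.Lib.Helper8.IsoInv

variable {G : Type*} [Group G]

theorem left_inverts {p q : G} (hp : p * p = 1) (hq : q * q = 1) : p * (p * q) * p = (p * q)⁻¹ := by
  rw [mul_inv_rev, inv_eq_self_of_mul_self hp, inv_eq_self_of_mul_self hq]
  calc p * (p * q) * p = (p * p) * q * p := by group
    _ = q * p := by rw [hp, one_mul]

theorem right_inverts {p q : G} (hp : p * p = 1) (hq : q * q = 1) : q * (p * q) * q = (p * q)⁻¹ := by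
  rw [mul_inv_rev, inv_eq_self_of_mul_self hp, inv_eq_self_of_mul_self hq]
  calc q * (p * q) * q = q * p * (q * q) := by group
    _ = q * p := by rw [hq, mul_one]

theorem pow_conj_of_odd {p q : G} (hp : p * p = 1) (hq : q * q = 1) {m : ℕ}
    (hm : orderOf (p * q) = 2 * m + 1) :
    ((p * q) ^ m) * p * ((p * q) ^ m)⁻¹ = q := by
  have hpi : p⁻¹ = p := inv_eq_self_of_mul_self hp
  have hqi : q⁻¹ = q := inv_eq_self_of_mul_self hq
  have hinv : p * (p * q) * p = (p * q)⁻¹ := left_inverts hp hq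
  generalize hr : p * q = r at *
  have h1 : p * r ^ m * p = (r ^ m)⁻¹ := conj_pow_inverted hp hinv m
  have h2 : p * (r ^ m)⁻¹ * p = r ^ m := by
    have : p * (r ^ m)⁻¹ * p = (p * r ^ m * p)⁻¹ := by
      rw [mul_inv_rev, mul_inv_rev, hpi]; group
    rw [this, h1, inv_inv]
  have h3 : r ^ (2 * m) * r = 1 := by
    rw [← pow_succ, ← hm, pow_orderOf_eq_one]
  have h4 : r ^ (2 * m) = r⁻¹ := eq_inv_of_mul_eq_one_left h3
  calc r ^ m * p * (r ^ m)⁻¹ = r ^ m * (p * (r ^ m)⁻¹ * p) * p := by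
        have : p * (r ^ m)⁻¹ * p * p = p * (r ^ m)⁻¹ := by rw [mul_assoc, hp, mul_one]
        rw [mul_assoc (r ^ m) _ p, this]; group
    _ = r ^ m * r ^ m * p := by rw [h2]
    _ = r ^ (2 * m) * p := by rw [← pow_add, two_mul]
    _ = r⁻¹ * p := by rw [h4]
    _ = q := by
        rw [← hr, mul_inv_rev, hpi, hqi, mul_assoc, hp, mul_one]

theorem conj_of_odd {p q : G} (hp : p * p = 1) (hq : q * q = 1) (hodd : Odd (orderOf (p * q))) :
    ∃ g : G, g * p * g⁻¹ = q := by
  obtain ⟨m, hm⟩ := hodd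
  exact ⟨_, pow_conj_of_odd hp hq hm⟩

theorem central_invol_of_even [Finite G] {p q : G} (hp : p * p = 1) (hq : q * q = 1) {k : ℕ}
    (hk : orderOf (p * q) = k + k) :
    (p * q) ^ k ≠ 1 ∧ (p * q) ^ k * (p * q) ^ k = 1 ∧ p * (p * q) ^ k = (p * q) ^ k * p ∧
      q * (p * q) ^ k = (p * q) ^ k * q := by
  have hpi : p⁻¹ = p := inv_eq_self_of_mul_self hp
  have hqi : q⁻¹ = q := inv_eq_self_of_mul_self hq
  have hinvp : p * (p * q) * p = (p * q)⁻¹ := left_inverts hp hq
  have hinvq : q * (p * q) * q = (p * q)⁻¹ := right_inverts hp hq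
  generalize hr : p * q = r at *
  have hpos : 0 < orderOf r := orderOf_pos r
  have hu1 : r ^ k ≠ 1 := pow_ne_one_of_lt_orderOf (by omega) (by omega)
  have hu2 : r ^ k * r ^ k = 1 := by rw [← pow_add, ← hk, pow_orderOf_eq_one]
  have hui : (r ^ k)⁻¹ = r ^ k := inv_eq_self_of_mul_self hu2
  have hpu : p * r ^ k * p = r ^ k := by rw [conj_pow_inverted hp hinvp k, hui]
  have hqu : q * r ^ k * q = r ^ k := by rw [conj_pow_inverted hq hinvq k, hui]
  refine ⟨hu1, hu2, ?_, ?_⟩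
  · calc p * r ^ k = p * r ^ k * (p * p) := by rw [hp, mul_one]
      _ = (p * r ^ k * p) * p := by group
      _ = r ^ k * p := by rw [hpu]
  · calc q * r ^ k = q * r ^ k * (q * q) := by rw [hq, mul_one]
      _ = (q * r ^ k * q) * q := by group
      _ = r ^ k * q := by rw [hqu]

end Cfsg.Agent.Lib.Helper8.Dih
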