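import Mathlib
import Cfsg.Prelude.Def_TwoFusion
import Cfsg.Agent.Lib.Helper8.IsoInv
import Cfsg.Agent.S1184

set_option autoImplicit false

namespace Cfsg.Agent.Lib.Helper8.IsoK

open Cfsg.Agent.Lib.Helper8.IsoInv

variable {G : Type*} [Group G]

theorem inv_inverted {z k : G} (hk : z * k * z⁻¹ = k⁻¹) : z * k⁻¹ * z⁻¹ = k := by
  have : z * k⁻¹ * z⁻¹ = (z * k * z⁻¹)⁻¹ := by group
  rw [this, hk, inv_inv]

theorem conj_eq_sq_mul {z k : G} (hk : z * k * z⁻¹ = k⁻¹) : k * z * k⁻¹ = k ^ 2 * z := by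
  calc k * z * k⁻¹ = k * (z * k⁻¹ * z⁻¹) * z := by group
    _ = k ^ 2 * z := by rw [inv_inverted hk, pow_two]

theorem K_unique {z k k' : G} (hk1 : Odd (orderOf k)) (hk2 : z * k * z⁻¹ = k⁻¹)
    (hk1' : Odd (orderOf k')) (hk2' : z * k' * z⁻¹ = k'⁻¹) (h : k * z * k⁻¹ = k' * z * k'⁻¹) :
    k = k' := by
  apply eq_of_sq_eq_of_odd hk1 hk1'
  rw [conj_eq_sq_mul hk2, conj_eq_sq_mul hk2'] at h
  exact mul_right_cancel h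

theorem K_exists [Finite G] {z : G} (hz : Cfsg.IsIsolatedInvolution z) (g : G) :
    ∃ k : G, Odd (orderOf k) ∧ z * k * z⁻¹ = k⁻¹ ∧ k * z * k⁻¹ = g * z * g⁻¹ := by
  have hzz : z * z = 1 := mul_self_of_orderOf_two hz.1
  have hzi : z⁻¹ = z := inv_eq_self_of_mul_self hzz
  obtain ⟨m, hm⟩ := exists_pow_conj hz g
  refine ⟨(z * (g * z * g⁻¹)) ^ m, ?_, ?_, hm⟩
  · exact Odd.of_dvd_nat (odd_orderOf_mul_conj hz g) (orderOf_pow_dvd m)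
  · rw [hzi]; exact conj_pow_inverted hzz (mul_conj_inverted hzz g) m

theorem K_conj {z k c : G} (hk1 : Odd (orderOf k)) (hk2 : z * k * z⁻¹ = k⁻¹) (hc : c * z = z * c) :
    Odd (orderOf (c * k * c⁻¹)) ∧ z * (c * k * c⁻¹) * z⁻¹ = (c * k * c⁻¹)⁻¹ := by
  constructor
  · have : orderOf (c * k * c⁻¹) = orderOf k :=
      orderOf_injective (MulAut.conj c).toMonoidHom (MulAut.conj c).injective k
    rw [this]; exact hk1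
  · have hc' : c⁻¹ * z⁻¹ = z⁻¹ * c⁻¹ := by
      rw [← mul_inv_rev, ← mul_inv_rev, hc]
    calc z * (c * k * c⁻¹) * z⁻¹ = (z * c) * k * (c⁻¹ * z⁻¹) := by group
      _ = (c * z) * k * (z⁻¹ * c⁻¹) := by rw [hc, hc']
      _ = c * (z * k * z⁻¹) * c⁻¹ := by group
      _ = (c * k * c⁻¹)⁻¹ := by rw [hk2]; group

theorem mid_unique [Finite G] {z : G} (hz : Cfsg.IsIsolatedInvolution z) (g₁ g₂ h : G)
    (heq : (g₁ * z * g₁⁻¹) * (h * z * h⁻¹) * (g₁ * z * g₁⁻¹)⁻¹ =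
      (g₂ * z * g₂⁻¹) * (h * z * h⁻¹) * (g₂ * z * g₂⁻¹)⁻¹) :
    g₁ * z * g₁⁻¹ = g₂ * z * g₂⁻¹ := by
  by_contra hne
  have hzz : z * z = 1 := mul_self_of_orderOf_two hz.1
  have hw := conj_isolated hz h
  have e1 : g₁ * z * g₁⁻¹ = (g₁ * h⁻¹) * (h * z * h⁻¹) * (g₁ * h⁻¹)⁻¹ := by group
  have e2 : g₂ * z * g₂⁻¹ = (g₂ * h⁻¹) * (h * z * h⁻¹) * (g₂ * h⁻¹)⁻¹ := by group
  have h11 : (g₁ * z * g₁⁻¹) * (g₁ * z * g₁⁻¹) = 1 := conj_mul_self hzz g₁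
  have h22 : (g₂ * z * g₂⁻¹) * (g₂ * z * g₂⁻¹) = 1 := conj_mul_self hzz g₂
  have hi1 : (g₁ * z * g₁⁻¹)⁻¹ = g₁ * z * g₁⁻¹ := inv_eq_self_of_mul_self h11
  have hi2 : (g₂ * z * g₂⁻¹)⁻¹ = g₂ * z * g₂⁻¹ := inv_eq_self_of_mul_self h22
  have hne' : (g₂ * h⁻¹) * (h * z * h⁻¹) * (g₂ * h⁻¹)⁻¹ ≠ (g₁ * h⁻¹) * (h * z * h⁻¹) * (g₁ * h⁻¹)⁻¹ := by
    rw [← e1, ← e2]; exact fun h' => hne h'.symm
  have hnc := Cfsg.Agent.S1184.result (h * z * h⁻¹) hw (g₂ * h⁻¹) (g₁ * h⁻¹) hne'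
  rw [← e1, ← e2] at hnc
  apply hnc
  generalize g₁ * z * g₁⁻¹ = m₁ at *
  generalize g₂ * z * g₂⁻¹ = m₂ at *
  generalize h * z * h⁻¹ = w at *
  rw [hi1, hi2] at heq
  show m₂ * m₁ * w = w * (m₂ * m₁)
  calc m₂ * m₁ * w = m₂ * (m₁ * w * m₁) * m₁⁻¹ := by group
    _ = m₂ * (m₂ * w * m₂) * m₁⁻¹ := by rw [heq]
    _ = (m₂ * m₂) * w * m₂ * m₁⁻¹ := by group
    _ = w * (m₂ * m₁) := by rw [h22, one_mul, hi1]; group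

theorem mid_exists [Finite G] {z : G} (hz : Cfsg.IsIsolatedInvolution z) (h₁ h₂ : G) :
    ∃ g : G, (g * z * g⁻¹) * (h₁ * z * h₁⁻¹) * (g * z * g⁻¹)⁻¹ = h₂ * z * h₂⁻¹ := by
  have hzz : z * z = 1 := mul_self_of_orderOf_two hz.1
  have hw := conj_isolated hz h₁
  have hww : (h₁ * z * h₁⁻¹) * (h₁ * z * h₁⁻¹) = 1 := conj_mul_self hzz h₁
  have e2 : h₂ * z * h₂⁻¹ = (h₂ * h₁⁻¹) * (h₁ * z * h₁⁻¹) * (h₂ * h₁⁻¹)⁻¹ := by group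
  obtain ⟨m, hm⟩ := exists_pow_conj hw (h₂ * h₁⁻¹)
  obtain ⟨x, hx⟩ := exists_conj_eq_pow_mul (h₁ * z * h₁⁻¹) hww (h₂ * h₁⁻¹) m
  rw [← e2] at hm hx
  refine ⟨x * h₁, ?_⟩
  have e3 : (x * h₁) * z * (x * h₁)⁻¹ = x * (h₁ * z * h₁⁻¹) * x⁻¹ := by group
  rw [e3, hx]
  generalize h₁ * z * h₁⁻¹ = w at *
  generalize h₂ * z * h₂⁻¹ = w₂ at *
  generalize (w * w₂) ^ m = y at *
  rw [← hm]
  have hwi : w⁻¹ = w := inv_eq_self_of_mul_self hww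
  calc y * w * w * (y * w)⁻¹ = y * (w * w) * w⁻¹ * y⁻¹ := by group
    _ = y * w * y⁻¹ := by rw [hww, mul_one, hwi]

end Cfsg.Agent.Lib.Helper8.IsoK
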