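import Mathlib
import Cfsg.Agent.Lib.Helper8.NilNum
import Cfsg.Agent.Lib.Helper8.NilPerm

set_option autoImplicit false

namespace Cfsg.Agent.Lib.Helper8.NilAlt

open Cfsg.Agent.Lib.Helper8.NilNum
open Cfsg.Agent.Lib.Helper8.NilPerm

/-- an involution commuting with a group `U` of odd order gives an odd involution commuting
with `U` -/
theorem odd_centralizer {n : ℕ} (U : Subgroup (Equiv.Perm (Fin n))) (hU : Odd (Nat.card U))
    (t : Equiv.Perm (Fin n)) (ht2 : t * t = 1) (ht1 : t ≠ 1) (hc : ∀ u ∈ U, u * t = t * u) :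
    ∃ τ : Equiv.Perm (Fin n), τ * τ = 1 ∧ (∀ u ∈ U, u * τ = τ * u) ∧
      Equiv.Perm.sign τ = -1 := by
  classical
  have htt : ∀ y, t (t y) = y := fun y => by
    have := congrArg (fun σ : Equiv.Perm (Fin n) => σ y) ht2
    simpa using this
  have hct : ∀ u ∈ U, ∀ y, u (t y) = t (u y) := fun u hu y => by
    have := congrArg (fun σ : Equiv.Perm (Fin n) => σ y) (hc u hu)
    simpa using this
  obtain ⟨x₀, hx₀⟩ : ∃ x₀, t x₀ ≠ x₀ := by
    by_contra hcon
    push Not at hcon
    exact ht1 (Equiv.ext hcon)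
  let O : Set (Fin n) := {y | ∃ u ∈ U, u x₀ = y}
  have hOodd : Odd O.ncard := by
    have h1 := MulAction.index_stabilizer U x₀
    have h2 : MulAction.orbit U x₀ = O := by
      ext y
      constructor
      · rintro ⟨u, rfl⟩
        exact ⟨u.1, u.2, rfl⟩
      · rintro ⟨u, hu, rfl⟩
        exact ⟨⟨u, hu⟩, rfl⟩
    rw [h2] at h1
    have h3 : O.ncard ∣ Nat.card U := by rw [← h1]; exact Subgroup.index_dvd_card _
    exact Odd.of_dvd_nat hU h3
  have hOinv : ∀ u ∈ U, ∀ y ∈ O, u y ∈ O := by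
    rintro u hu y ⟨v, hv, rfl⟩
    exact ⟨u * v, U.mul_mem hu hv, rfl⟩
  have hkey : ∀ u ∈ U, t x₀ ≠ u x₀ := by
    intro u hu heq
    let S : Subgroup (Equiv.Perm (Fin n)) := MulAction.stabilizer (Equiv.Perm (Fin n)) x₀
    have hg : u⁻¹ * t ∈ S := by
      rw [MulAction.mem_stabilizer_iff]
      show u⁻¹ (t x₀) = x₀
      rw [heq]; simp
    have hcom : Commute u⁻¹ t := by
      have h := hc u hu
      show u⁻¹ * t = t * u⁻¹
      calc u⁻¹ * t = u⁻¹ * (t * u) * u⁻¹ := by group
        _ = u⁻¹ * (u * t) * u⁻¹ := by rw [h]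
        _ = t * u⁻¹ := by group
    have hpow : (u⁻¹ * t) ^ Nat.card U = t ^ Nat.card U := by
      rw [hcom.mul_pow]
      have : u⁻¹ ^ Nat.card U = 1 := by
        have := pow_card_eq_one' (G := U) (x := ⟨u⁻¹, U.inv_mem hu⟩)
        exact congrArg Subtype.val this
      rw [this, one_mul]
    have htS : t ∈ S := by
      apply mem_of_pow_mem S t (Nat.card U) 2 (Nat.coprime_two_right.mpr hU)
      · rw [← hpow]; exact S.pow_mem hg _
      · rw [pow_two, ht2]; exact S.one_mem
    exact hx₀ (MulAction.mem_stabilizer_iff.mp htS)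
  let W : Set (Fin n) := O ∪ t '' O
  have hWt : ∀ y ∈ W, t y ∈ W := by
    rintro y (hy | ⟨y', hy', rfl⟩)
    · exact Or.inr ⟨y, hy, rfl⟩
    · rw [htt]; exact Or.inl hy'
  have hWu : ∀ u ∈ U, ∀ y ∈ W, u y ∈ W := by
    rintro u hu y (hy | ⟨y', hy', rfl⟩)
    · exact Or.inl (hOinv u hu y hy)
    · rw [hct u hu]; exact Or.inr ⟨u y', hOinv u hu y' hy', rfl⟩
  let τf : Fin n → Fin n := fun y => if y ∈ W then t y else y
  have hτf : Function.Involutive τf := by
    intro y
    by_cases hy : y ∈ W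
    · have h1 : τf y = t y := if_pos hy
      rw [h1]
      have h2 : τf (t y) = t (t y) := if_pos (hWt y hy)
      rw [h2, htt]
    · have h1 : τf y = y := if_neg hy
      rw [h1, h1]
  let τ : Equiv.Perm (Fin n) := hτf.toPerm τf
  have hτW : ∀ y ∈ W, τ y = t y := fun y hy => if_pos hy
  have hτW' : ∀ y, y ∉ W → τ y = y := fun y hy => if_neg hy
  have hττ : τ * τ = 1 := Equiv.ext fun y => hτf y
  refine ⟨τ, hττ, ?_, ?_⟩
  · intro u hu
    apply Equiv.ext
    intro y
    show u (τ y) = τ (u y)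
    by_cases hy : y ∈ W
    · rw [hτW y hy, hτW (u y) (hWu u hu y hy), hct u hu]
    · have huy : u y ∉ W := by
        intro h
        have := hWu u⁻¹ (U.inv_mem hu) (u y) h
        simp at this
        exact hy this
      rw [hτW' y hy, hτW' (u y) huy]
  · have hτ2 : τ ^ 2 = 1 := by rw [pow_two]; exact hττ
    have hx₀O : x₀ ∈ O := ⟨1, U.one_mem, rfl⟩
    have hτ1 : τ ≠ 1 := by
      intro h
      have h' : τ x₀ = t x₀ := hτW x₀ (Or.inl hx₀O)
      rw [h] at h'
      exact hx₀ h'.symm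
    have hord : orderOf τ = 2 := orderOf_eq_prime hτ2 hτ1
    have hmovO : ∀ y ∈ O, t y ≠ y := by
      rintro y ⟨u, hu, rfl⟩ h
      rw [← hct u hu] at h
      exact hx₀ (u.injective h)
    have hmovW : ∀ y ∈ W, t y ≠ y := by
      rintro y (hy | ⟨y', hy', rfl⟩)
      · exact hmovO y hy
      · rw [htt]; exact fun h => hmovO y' hy' h.symm
    have hsupp : (τ.support : Set (Fin n)) = W := by
      ext y
      simp only [Finset.mem_coe, Equiv.Perm.mem_support]
      constructor
      · intro h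
        by_contra hy
        exact h (hτW' y hy)
      · intro hy
        rw [hτW y hy]; exact hmovW y hy
    have hdisj : Disjoint O (t '' O) := by
      rw [Set.disjoint_left]
      rintro y ⟨u, hu, rfl⟩ ⟨y', ⟨v, hv, rfl⟩, h⟩
      rw [← hct v hv] at h
      apply hkey (v⁻¹ * u) (U.mul_mem (U.inv_mem hv) hu)
      show t x₀ = v⁻¹ (u x₀)
      rw [← h]; simp
    have hWcard : W.ncard = 2 * O.ncard := by
      show (O ∪ t '' O).ncard = _
      rw [Set.ncard_union_eq hdisj, Set.ncard_image_of_injective _ t.injective]; ring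
    have hsc : τ.support.card = 2 * O.ncard := by
      rw [← hWcard, ← hsupp, Set.ncard_coe_finset]
    obtain ⟨m, hm⟩ := Equiv.Perm.cycleType_prime_order (σ := τ) (by rw [hord]; exact Nat.prime_two)
    rw [hord] at hm
    have hsum := Equiv.Perm.sum_cycleType τ
    rw [hm, Multiset.sum_replicate, smul_eq_mul, hsc] at hsum
    have hmO : m + 1 = O.ncard := by omega
    rw [Equiv.Perm.sign_of_cycleType, hm, Multiset.sum_replicate, Multiset.card_replicate,
      smul_eq_mul, hmO]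
    obtain ⟨k, hk⟩ := hOodd
    rw [hk]
    have e : (2 * k + 1) * 2 + (2 * k + 1) = 2 * (3 * k + 1) + 1 := by ring
    rw [e, pow_succ, pow_mul]; simp

/-- a 2-group of even permutations inside `C`, with an odd involution in `C`, lies in a
2-subgroup of `C` of at least twice the order -/
theorem exists_bigger (n : ℕ) (T' C : Subgroup (Equiv.Perm (Fin n))) (hTC : T' ≤ C)
    (hT2 : IsPGroup 2 T') (hTA : ∀ t ∈ T', Equiv.Perm.sign t = 1) (τ : Equiv.Perm (Fin n))
    (hτC : τ ∈ C) (hτ2 : τ * τ = 1) (hτs : Equiv.Perm.sign τ = -1) :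
    ∃ S' : Subgroup (Equiv.Perm (Fin n)), S' ≤ C ∧ IsPGroup 2 S' ∧
      2 * Nat.card T' ≤ Nat.card S' := by
  have : Fact (Nat.Prime 2) := ⟨Nat.prime_two⟩
  have hT'' : IsPGroup 2 (T'.subgroupOf C) := hT2.comap_subtype
  obtain ⟨Q, hQ⟩ := hT''.exists_le_sylow
  let τC : C := ⟨τ, hτC⟩
  have hτC1 : τC ≠ 1 := by
    intro h
    have h1 : τ = 1 := congrArg Subtype.val h
    rw [h1] at hτs
    simp at hτs
  have hτC2 : τC ^ 2 = 1 := by
    apply Subtype.ext
    show τ ^ 2 = 1
    rw [pow_two, hτ2]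
  have hordC : orderOf τC = 2 := orderOf_eq_prime hτC2 hτC1
  have hz : IsPGroup 2 (Subgroup.zpowers τC) := by
    apply IsPGroup.of_card (n := 1)
    rw [Nat.card_zpowers, hordC]; rfl
  obtain ⟨Q₂, hQ₂⟩ := hz.exists_le_sylow
  obtain ⟨c, hc⟩ := MulAction.exists_smul_eq C Q₂ Q
  have hσQ : MulAut.conj c • τC ∈ (Q : Subgroup C) := by
    rw [← hc, Sylow.coe_subgroup_smul]
    exact Subgroup.smul_mem_pointwise_smul _ _ _ (hQ₂ (Subgroup.mem_zpowers τC))
  let S' : Subgroup (Equiv.Perm (Fin n)) := (Q : Subgroup C).map C.subtype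
  have hS'C : S' ≤ C := by
    rintro _ ⟨q, -, rfl⟩
    exact q.2
  have hS'2 : IsPGroup 2 S' := Q.2.map C.subtype
  have hTS : T' ≤ S' := by
    intro t ht
    exact ⟨⟨t, hTC ht⟩, hQ (Subgroup.mem_subgroupOf.mpr ht), rfl⟩
  let σ : Equiv.Perm (Fin n) := ((MulAut.conj c • τC : C) : Equiv.Perm (Fin n))
  have hσS : σ ∈ S' := ⟨_, hσQ, rfl⟩
  have hσ : σ = c.1 * τ * c.1⁻¹ := by
    show ((MulAut.conj c • τC : C) : Equiv.Perm (Fin n)) = _
    rw [MulAut.smul_def, MulAut.conj_apply]; rfl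
  have hσs : Equiv.Perm.sign σ = -1 := by
    rw [hσ, map_mul, map_mul, map_inv, mul_inv_cancel_comm, hτs]
  have hσT : σ ∉ T' := by
    intro h
    have h1 := hTA σ h
    rw [hσs] at h1
    exact absurd h1 (by decide)
  obtain ⟨m, hm⟩ := Subgroup.card_dvd_of_le hTS
  have hpos : 0 < Nat.card S' := Nat.card_pos
  have hm1 : m ≠ 1 := by
    intro h1
    rw [h1, mul_one] at hm
    have h2 := Subgroup.eq_of_le_of_card_ge hTS hm.le
    rw [h2] at hσT
    exact hσT hσS
  have hm0 : m ≠ 0 := by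
    intro h0; rw [h0, mul_zero] at hm; omega
  refine ⟨S', hS'C, hS'2, ?_⟩
  rw [hm]
  have h2m : 2 ≤ m := by omega
  calc 2 * Nat.card T' = Nat.card T' * 2 := by ring
    _ ≤ Nat.card T' * m := Nat.mul_le_mul_left _ h2m

/-- a 2-group and a commuting nilpotent group of odd order -/
theorem prod_bound (n : ℕ) (S' U : Subgroup (Equiv.Perm (Fin n))) (hS : IsPGroup 2 S')
    (hUn : Group.IsNilpotent U) (hUo : Odd (Nat.card U))
    (hc : ∀ s ∈ S', ∀ u ∈ U, s * u = u * s) : Nat.card S' * Nat.card U ≤ gg n := by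
  have : Fact (Nat.Prime 2) := ⟨Nat.prime_two⟩
  have hSn : Group.IsNilpotent S' := hS.isNilpotent
  let f : S' × U →* Equiv.Perm (Fin n) :=
    MonoidHom.noncommCoprod S'.subtype U.subtype (fun s u => hc s.1 s.2 u.1 u.2)
  have hinj : Function.Injective f := by
    rw [injective_iff_map_eq_one]
    rintro ⟨s, u⟩ h
    have h1 : (s : Equiv.Perm (Fin n)) * (u : Equiv.Perm (Fin n)) = 1 := h
    have hcop : Nat.Coprime (Nat.card S') (Nat.card U) := by
      obtain ⟨k, hk⟩ := IsPGroup.iff_card.mp hS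
      rw [hk]
      exact Nat.Coprime.pow_left _ (Nat.coprime_two_left.mpr hUo)
    have hdis := Subgroup.disjoint_of_coprime_natCard hcop
    have hsU : (s : Equiv.Perm (Fin n)) ∈ U := by
      have : (s : Equiv.Perm (Fin n)) = (u : Equiv.Perm (Fin n))⁻¹ := eq_inv_of_mul_eq_one_left h1
      rw [this]; exact U.inv_mem u.2
    have hs : (s : Equiv.Perm (Fin n)) = 1 := Subgroup.disjoint_def.mp hdis s.2 hsU
    have hu : (u : Equiv.Perm (Fin n)) = 1 := by rw [hs, one_mul] at h1; exact h1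
    exact Prod.ext (Subtype.ext hs) (Subtype.ext hu)
  have hnil : Group.IsNilpotent f.range :=
    Group.nilpotent_of_surjective f.rangeRestrict f.rangeRestrict_surjective
  have hb := bound_all n (Fin n) (by simp) f.range hnil
  rw [← Nat.card_congr (MonoidHom.ofInjective hinj).toEquiv, Nat.card_prod] at hb
  exact hb

/-- the trichotomy for nilpotent groups of even permutations -/
theorem lemmaX (n : ℕ) (N : Subgroup (Equiv.Perm (Fin n))) (hN : Group.IsNilpotent N)
    (hA : ∀ g ∈ N, Equiv.Perm.sign g = 1) :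
    IsPGroup 2 N ∨ Odd (Nat.card N) ∨ 2 * Nat.card N ≤ gg n := by
  have : Fact (Nat.Prime 2) := ⟨Nat.prime_two⟩
  by_cases h2 : 2 ∣ Nat.card N
  swap
  · right; left
    exact Nat.odd_iff.mpr (by omega)
  let T : Sylow 2 N := default
  by_cases hTtop : (T : Subgroup N) = ⊤
  · left
    intro g
    have hg : g ∈ (T : Subgroup N) := by rw [hTtop]; trivial
    obtain ⟨k, hk⟩ := T.2 ⟨g, hg⟩
    exact ⟨k, congrArg Subtype.val hk⟩
  right; right
  obtain ⟨R, hR⟩ := Subgroup.exists_right_complement'_of_coprime (T.card_coprime_index)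
  have hcomm := commute_compl 2 T R hR
  have hcardTR : Nat.card (T : Subgroup N) * Nat.card R = Nat.card N := hR.card_mul_card
  have hTidx : (T : Subgroup N).index = Nat.card R := hR.symm.index_eq_card
  have hRodd : Odd (Nat.card R) := by
    rw [← hTidx]
    have := T.not_dvd_index
    exact Nat.odd_iff.mpr (by omega)
  have h2T : 2 ∣ Nat.card (T : Subgroup N) := T.dvd_card_of_dvd_card h2
  obtain ⟨t₀, ht₀⟩ := exists_prime_orderOf_dvd_card' 2 h2T
  let t : Equiv.Perm (Fin n) := ((t₀ : N) : Equiv.Perm (Fin n))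
  have ht2 : t * t = 1 := by
    have h := pow_orderOf_eq_one t₀
    rw [ht₀] at h
    have h' : (((t₀ ^ 2 : (T : Subgroup N)) : N) : Equiv.Perm (Fin n)) = 1 := by rw [h]; rfl
    rw [← pow_two]; exact h'
  have ht1 : t ≠ 1 := by
    intro h
    have h1 : t₀ = 1 := Subtype.ext (Subtype.ext h)
    rw [h1, orderOf_one] at ht₀
    omega
  let U : Subgroup (Equiv.Perm (Fin n)) := R.map N.subtype
  let T' : Subgroup (Equiv.Perm (Fin n)) := (T : Subgroup N).map N.subtype
  have hUcard : Nat.card U = Nat.card R := Subgroup.card_map_of_injective N.subtype_injective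
  have hTcard : Nat.card T' = Nat.card (T : Subgroup N) :=
    Subgroup.card_map_of_injective N.subtype_injective
  have hUodd : Odd (Nat.card U) := by rw [hUcard]; exact hRodd
  have hTU : ∀ s ∈ T', ∀ u ∈ U, s * u = u * s := by
    rintro _ ⟨s, hs, rfl⟩ _ ⟨u, hu, rfl⟩
    have := congrArg Subtype.val (hcomm s hs u hu)
    simpa using this
  have htT' : t ∈ T' := ⟨t₀.1, t₀.2, rfl⟩
  obtain ⟨τ, hτ2, hτU, hτs⟩ :=
    odd_centralizer U hUodd t ht2 ht1 (fun u hu => (hTU t htT' u hu).symm)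
  let C : Subgroup (Equiv.Perm (Fin n)) := Subgroup.centralizer (U : Set (Equiv.Perm (Fin n)))
  have hT'C : T' ≤ C := by
    intro s hs
    rw [Subgroup.mem_centralizer_iff]
    intro u hu
    exact (hTU s hs u hu).symm
  have hτC : τ ∈ C := by
    rw [Subgroup.mem_centralizer_iff]
    intro u hu
    exact hτU u hu
  have hT'2 : IsPGroup 2 T' := T.2.map N.subtype
  have hT'A : ∀ s ∈ T', Equiv.Perm.sign s = 1 := by
    rintro _ ⟨s, hs, rfl⟩
    exact hA s.1 s.2
  obtain ⟨S', hS'C, hS'2, hS'card⟩ := exists_bigger n T' C hT'C hT'2 hT'A τ hτC hτ2 hτs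
  have hUnil : Group.IsNilpotent U :=
    Group.nilpotent_of_mulEquiv (R.equivMapOfInjective N.subtype N.subtype_injective)
  have hb := prod_bound n S' U hS'2 hUnil hUodd
    (fun s hs u hu => ((Subgroup.mem_centralizer_iff.mp (hS'C hs)) u hu).symm)
  calc 2 * Nat.card N = 2 * (Nat.card (T : Subgroup N) * Nat.card R) := by rw [hcardTR]
    _ = (2 * Nat.card T') * Nat.card U := by rw [hTcard, hUcard]; ring
    _ ≤ Nat.card S' * Nat.card U := Nat.mul_le_mul_right _ hS'card
    _ ≤ gg n := hb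

end Cfsg.Agent.Lib.Helper8.NilAlt
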