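import Mathlib
import Cfsg.Agent.Lib.Helper8.NilPerm3

set_option autoImplicit false

namespace Cfsg.Agent.Lib.Helper8.NilAlt3

open Cfsg.Agent.Lib.Helper8.NilNum Cfsg.Agent.Lib.Helper8.NilPerm
open Cfsg.Agent.Lib.Helper8.NilPerm3

theorem ee_lt_four (k : ℕ) (hk : 1 ≤ k) : ee (4 * k - 1) + 2 ≤ ee (4 * k) := by
  obtain ⟨k', rfl⟩ := Nat.exists_eq_add_of_le hk
  have h1 : 4 * (1 + k') - 1 = 2 * (2 * k' + 1) + 1 := by omega
  have h2 : 4 * (1 + k') = 2 * (2 * (1 + k')) := by omega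
  have h3 := ee_lt_even (1 + k') (by omega)
  have h4 : 2 * (1 + k') - 1 = 2 * k' + 1 := by omega
  rw [h4] at h3
  rw [h1, h2, ee_two_mul_add_one (2 * k' + 1), ee_two_mul (2 * k' + 1),
    ee_two_mul (2 * (1 + k'))]
  omega

theorem ee_strict2 (m j : ℕ) (hm : m % 4 = 0) (hj : 2 ≤ j) (hle : 3 * j ≤ m + 3) :
    ee (m + 3 - 3 * j) + ee j + 2 ≤ ee m := by
  have h1 := ee_add (m + 3 - 3 * j) j
  have h2 : ee (m + 3 - 3 * j + j) ≤ ee (m - 1) := ee_mono (by omega)
  have h3 : ee (4 * (m / 4) - 1) + 2 ≤ ee (4 * (m / 4)) := ee_lt_four (m / 4) (by omega)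
  have h4 : 4 * (m / 4) = m := by omega
  rw [h4] at h3
  omega

theorem structure_lemma' (n : ℕ) (hn : n % 4 = 3) (N : Subgroup (Equiv.Perm (Fin n)))
    (hN : Group.IsNilpotent N) (E : ℕ) (hE : ee (n - 3) ≤ E + 1)
    (hcard : Nat.card N = 3 * 2 ^ E) :
    ∃ z ∈ N, z.IsThreeCycle ∧ ∃ T : Subgroup (Equiv.Perm (Fin n)), T ≤ N ∧
      Nat.card T = 2 ^ E ∧ ∀ t ∈ T, ∀ x, z x ≠ x → t x = x := by
  have hp2 : Fact (Nat.Prime 2) := ⟨Nat.prime_two⟩
  have hp3 : Fact (Nat.Prime 3) := ⟨Nat.prime_three⟩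
  let U : Sylow 3 N := default
  let T₀ : Sylow 2 N := default
  have hUn : (U : Subgroup N).Normal := inferInstance
  have hTn : (T₀ : Subgroup N).Normal := inferInstance
  have hUcard : Nat.card (U : Subgroup N) = 3 := by
    rw [Sylow.card_eq_multiplicity, hcard, fact3]; norm_num
  have hTcard : Nat.card (T₀ : Subgroup N) = 2 ^ E := by
    rw [Sylow.card_eq_multiplicity, hcard, fact2]
  have hUne : (U : Subgroup N) ≠ ⊥ := by
    intro h
    rw [← Subgroup.card_eq_one] at h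
    omega
  obtain ⟨⟨z₀, hz₀U⟩, hz₀1⟩ := (Subgroup.ne_bot_iff_exists_ne_one).mp hUne
  have hz₀1' : z₀ ≠ 1 := fun h => hz₀1 (Subtype.ext h)
  have hord₀ : orderOf z₀ = 3 := by
    have h1 : orderOf (⟨z₀, hz₀U⟩ : (U : Subgroup N)) ∣ Nat.card (U : Subgroup N) :=
      orderOf_dvd_natCard _
    rw [hUcard] at h1
    rw [Subgroup.orderOf_mk] at h1
    rcases (Nat.dvd_prime Nat.prime_three).mp h1 with h | h
    · exact absurd (orderOf_eq_one_iff.mp h) hz₀1'
    · exact h
  let z : Equiv.Perm (Fin n) := (z₀ : Equiv.Perm (Fin n))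
  have hord : orderOf z = 3 := by
    show orderOf (z₀ : Equiv.Perm (Fin n)) = 3
    rw [Subgroup.orderOf_coe]; exact hord₀
  have hdis : Disjoint (U : Subgroup N) (T₀ : Subgroup N) :=
    IsPGroup.disjoint_of_ne 3 2 (by norm_num) _ _ U.2 T₀.2
  let T : Subgroup (Equiv.Perm (Fin n)) := (T₀ : Subgroup N).map N.subtype
  have hTN : T ≤ N := by
    rintro _ ⟨t, -, rfl⟩
    exact t.2
  have hTc : Nat.card T = 2 ^ E := by
    rw [Subgroup.card_map_of_injective N.subtype_injective]; exact hTcard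
  have hcomm : ∀ t ∈ T, z * t = t * z := by
    rintro _ ⟨t, ht, rfl⟩
    have := (Subgroup.commute_of_normal_of_disjoint _ _ hUn hTn hdis z₀ t hz₀U ht).eq
    exact congrArg Subtype.val this
  -- cycle type
  obtain ⟨j', hj⟩ := Equiv.Perm.cycleType_prime_order (σ := z) (by rw [hord]; exact Nat.prime_three)
  rw [hord] at hj
  have hsum : z.cycleType.sum = 3 * (j' + 1) := by
    rw [hj, Multiset.sum_replicate]; simp [mul_comm]
  have hsupp : 3 * (j' + 1) ≤ n := by
    rw [← hsum, Equiv.Perm.sum_cycleType]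
    have := Finset.card_le_univ z.support
    simpa using this
  have hcent := Equiv.Perm.nat_card_centralizer z
  rw [hsum] at hcent
  have hprod : z.cycleType.prod = 3 ^ (j' + 1) := by
    rw [hj, Multiset.prod_replicate]
  have hfin : z.cycleType.toFinset = {3} := by
    rw [hj, Multiset.toFinset_replicate]; simp
  rw [hprod, hfin, Finset.prod_singleton, hj, Multiset.count_replicate_self] at hcent
  have hTle : T ≤ Subgroup.centralizer {z} := by
    intro t ht
    rw [Subgroup.mem_centralizer_iff]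
    intro y hy
    rw [Set.mem_singleton_iff] at hy
    rw [hy]; exact hcomm t ht
  have hdvd : 2 ^ E ∣ (Fintype.card (Fin n) - 3 * (j' + 1)).factorial * 3 ^ (j' + 1) *
      (j' + 1).factorial := by
    rw [← hcent, ← hTc]; exact Subgroup.card_dvd_of_le hTle
  have hle := (Nat.prime_two.pow_dvd_iff_le_factorization
    (mul_ne_zero (mul_ne_zero (Nat.factorial_ne_zero _) (by positivity)) (Nat.factorial_ne_zero _))).mp hdvd
  rw [Nat.factorization_mul (mul_ne_zero (Nat.factorial_ne_zero _) (by positivity)) (Nat.factorial_ne_zero _),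
    Nat.factorization_mul (Nat.factorial_ne_zero _) (by positivity), Nat.factorization_pow] at hle
  simp only [Finsupp.coe_add, Pi.add_apply, Finsupp.coe_smul, Pi.smul_apply, smul_eq_mul,
    Nat.factorization_eq_zero_of_not_dvd (show ¬ 2 ∣ 3 by norm_num), mul_zero, add_zero,
    Fintype.card_fin] at hle
  have hle' : E ≤ ee (n - 3 * (j' + 1)) + ee (j' + 1) := hle
  have hj0 : j' = 0 := by
    by_contra hne
    have h2 : 2 ≤ j' + 1 := by omega
    have hs := ee_strict2 (n - 3) (j' + 1) (by omega) h2 (by omega)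
    have e1 : n - 3 + 3 - 3 * (j' + 1) = n - 3 * (j' + 1) := by omega
    rw [e1] at hs
    omega
  subst hj0
  have h3c : z.IsThreeCycle := by
    show z.cycleType = {3}
    rw [hj]; rfl
  refine ⟨z, z₀.2, h3c, T, hTN, hTc, ?_⟩
  intro t ht x hx
  have hcyc := h3c.isCycle
  have hct := hcomm t ht
  have hx' : z (t x) ≠ t x := by
    intro h
    have h1 : z (t x) = t (z x) := by
      have := congrArg (fun σ : Equiv.Perm (Fin n) => σ x) hct
      exact this
    rw [h1] at h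
    exact hx (t.injective h)
  obtain ⟨i, hi⟩ := hcyc.exists_pow_eq hx hx'
  have hpowc : ∀ k : ℕ, ∀ y, t ((z ^ k) y) = (z ^ k) (t y) := by
    intro k
    induction k with
    | zero => intro y; simp
    | succ k ih =>
      intro y
      rw [pow_succ]
      show t ((z ^ k) (z y)) = (z ^ k) (z (t y))
      rw [ih (z y)]
      have h1 : z (t y) = t (z y) := by
        have := congrArg (fun σ : Equiv.Perm (Fin n) => σ y) hct
        exact this
      rw [h1]
  have hiter : ∀ k : ℕ, (t ^ k) x = (z ^ (i * k)) x := by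
    intro k
    induction k with
    | zero => simp
    | succ k ih =>
      rw [pow_succ']
      show t ((t ^ k) x) = _
      rw [ih, hpowc, ← hi, ← Equiv.Perm.mul_apply, ← pow_add]
      congr 2
  have htpow : t ^ (2 ^ E) = 1 := by
    have := pow_card_eq_one' (G := T) (x := ⟨t, ht⟩)
    rw [hTc] at this
    exact congrArg Subtype.val this
  have h5 := hiter (2 ^ E)
  rw [htpow] at h5
  have h6 : z ^ (i * 2 ^ E) = 1 := (hcyc.pow_eq_one_iff' hx).mpr h5.symm
  have h7 : 3 ∣ i * 2 ^ E := by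
    have := orderOf_dvd_of_pow_eq_one h6
    rwa [hord] at this
  have h8 : 3 ∣ i := by
    have hc : Nat.Coprime 3 (2 ^ E) := Nat.Coprime.pow_right _ (by norm_num)
    exact hc.dvd_of_dvd_mul_right h7
  have h9 : z ^ i = 1 := by
    rw [← hord] at h8
    exact orderOf_dvd_iff_pow_eq_one.mp h8
  rw [h9] at hi
  exact hi.symm

theorem conj_alt (n e : ℕ) (hn5 : 5 ≤ n) (he : ((n - 3).factorial).factorization 2 = e + 1)
    (N₁ N₂ : Subgroup (Equiv.Perm (Fin n))) (c₁ : Nat.card N₁ = 3 * 2 ^ e)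
    (c₂ : Nat.card N₂ = 3 * 2 ^ e) (z₁ z₂ : Equiv.Perm (Fin n)) (hz₁ : z₁ ∈ N₁) (hz₂ : z₂ ∈ N₂)
    (h3₁ : z₁.IsThreeCycle) (h3₂ : z₂.IsThreeCycle) (T₁ T₂ : Subgroup (Equiv.Perm (Fin n)))
    (hT₁ : T₁ ≤ N₁) (hT₂ : T₂ ≤ N₂) (cT₁ : Nat.card T₁ = 2 ^ e) (cT₂ : Nat.card T₂ = 2 ^ e)
    (f₁ : ∀ t ∈ T₁, ∀ x, z₁ x ≠ x → t x = x) (f₂ : ∀ t ∈ T₂, ∀ x, z₂ x ≠ x → t x = x)
    (s₁ : ∀ t ∈ T₁, Equiv.Perm.sign t = 1) (s₂ : ∀ t ∈ T₂, Equiv.Perm.sign t = 1) :
    ∃ g : Equiv.Perm (Fin n), Equiv.Perm.sign g = 1 ∧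
      N₂ = N₁.map (MulAut.conj g).toMonoidHom := by
  obtain ⟨g₀, hg₀s, hg₀⟩ : ∃ g₀ : Equiv.Perm (Fin n), Equiv.Perm.sign g₀ = 1 ∧
      g₀ * z₁ * g₀⁻¹ = z₂ := by
    have hc := alternatingGroup.isThreeCycle_isConj (α := Fin n) (by simpa using hn5)
      (σ := ⟨z₁, h3₁.mem_alternatingGroup⟩) (τ := ⟨z₂, h3₂.mem_alternatingGroup⟩) h3₁ h3₂
    obtain ⟨c, hc⟩ := isConj_iff.mp hc
    exact ⟨c.1, Equiv.Perm.mem_alternatingGroup.mp c.2, congrArg Subtype.val hc⟩
  let H : Subgroup (Equiv.Perm (Fin n)) :=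
    (alternatingGroup {x : Fin n // z₂ x = x}).map
      (Equiv.Perm.ofSubtype (p := fun x : Fin n => z₂ x = x))
  have memH : ∀ σ : Equiv.Perm (Fin n), (∀ x, z₂ x ≠ x → σ x = x) →
      Equiv.Perm.sign σ = 1 → σ ∈ H := by
    intro σ hσ hσs
    have h₁ : ∀ x, z₂ (σ x) = σ x ↔ z₂ x = x := by
      intro x
      constructor
      · intro h
        by_contra hne
        have := hσ x hne
        rw [this] at h
        exact hne h
      · intro h
        by_contra hne
        have h2 := hσ (σ x) hne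
        have h3 : σ x = x := σ.injective h2
        rw [h3] at hne
        exact hne h
    have h₂ : ∀ x, σ x ≠ x → z₂ x = x := by
      intro x hx
      by_contra hne
      exact hx (hσ x hne)
    refine ⟨σ.subtypePerm h₁, ?_, Equiv.Perm.ofSubtype_subtypePerm h₁ h₂⟩
    show σ.subtypePerm h₁ ∈ alternatingGroup {x : Fin n // z₂ x = x}
    rw [Equiv.Perm.mem_alternatingGroup, ← Equiv.Perm.sign_ofSubtype,
      Equiv.Perm.ofSubtype_subtypePerm h₁ h₂]
    exact hσs
  have Hfix : ∀ σ ∈ H, ∀ x, z₂ x ≠ x → σ x = x := by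
    rintro _ ⟨τ, -, rfl⟩ x hx
    exact Equiv.Perm.ofSubtype_apply_of_not_mem τ hx
  have Hsign : ∀ σ ∈ H, Equiv.Perm.sign σ = 1 := by
    rintro _ ⟨τ, hτ, rfl⟩
    rw [Equiv.Perm.sign_ofSubtype]
    exact Equiv.Perm.mem_alternatingGroup.mp hτ
  have hfixcard : Nat.card {x : Fin n // z₂ x = x} = n - 3 := by
    rw [Nat.card_eq_fintype_card, Fintype.card_subtype]
    have : (Finset.univ.filter (fun x => z₂ x = x)) = z₂.supportᶜ := by
      ext x; simp [Equiv.Perm.mem_support]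
    rw [this, Finset.card_compl, h3₂.card_support]; simp
  have hHcard : 2 * Nat.card H = (n - 3).factorial := by
    have hnt : Nontrivial {x : Fin n // z₂ x = x} := by
      rw [← Finite.one_lt_card_iff_nontrivial, hfixcard]; omega
    have h1 := two_mul_nat_card_alternatingGroup (α := {x : Fin n // z₂ x = x})
    rw [Nat.card_perm, hfixcard] at h1
    rw [← h1]
    congr 1
    exact Subgroup.card_map_of_injective
      (Equiv.Perm.ofSubtype_injective (p := fun x : Fin n => z₂ x = x))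
  let T₁' : Subgroup (Equiv.Perm (Fin n)) := T₁.map (MulAut.conj g₀).toMonoidHom
  have cT₁' : Nat.card T₁' = 2 ^ e :=
    (Subgroup.card_map_of_injective (MulAut.conj g₀).injective).trans cT₁
  have hT₁'H : T₁' ≤ H := by
    rintro _ ⟨t, ht, rfl⟩
    refine memH _ ?_ ?_
    swap
    · show Equiv.Perm.sign (g₀ * t * g₀⁻¹) = 1
      rw [map_mul, map_mul, map_inv, mul_inv_cancel_comm]
      exact s₁ t ht
    intro x hx
    have h1 : z₁ (g₀⁻¹ x) ≠ g₀⁻¹ x := by
      intro h
      apply hx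
      rw [← hg₀]
      show g₀ (z₁ (g₀⁻¹ x)) = x
      rw [h]; simp
    have h2 := f₁ t ht _ h1
    show g₀ (t (g₀⁻¹ x)) = x
    rw [h2]; simp
  have hT₂H : T₂ ≤ H := fun t ht => memH t (f₂ t ht) (s₂ t ht)
  have hfac : (Nat.card H).factorization 2 = e := by
    have hH0 : Nat.card H ≠ 0 := Nat.card_pos.ne'
    rw [← hHcard, Nat.factorization_mul (by norm_num) hH0] at he
    simp [Nat.Prime.factorization_self Nat.prime_two] at he
    omega
  obtain ⟨h, hhH, hconj⟩ := syl_conj H T₁' T₂ hT₁'H hT₂H (by rw [hfac]; exact cT₁')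
    (by rw [hfac]; exact cT₂)
  have hcomm : h * z₂ = z₂ * h := by
    have hd : Equiv.Perm.Disjoint h z₂ := by
      intro x
      by_cases hx : z₂ x = x
      · right; exact hx
      · left; exact Hfix h hhH x hx
    exact hd.commute.eq
  refine ⟨h * g₀, by rw [map_mul, Hsign h hhH, hg₀s, one_mul], ?_⟩
  let K : Subgroup (Equiv.Perm (Fin n)) := Subgroup.zpowers z₂ ⊔ T₂
  have hK₂ : K ≤ N₂ := sup_le ((Subgroup.zpowers_le).mpr hz₂) hT₂
  have hK₁ : K ≤ N₁.map (MulAut.conj (h * g₀)).toMonoidHom := by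
    apply sup_le
    · rw [Subgroup.zpowers_le]
      refine ⟨z₁, hz₁, ?_⟩
      show h * g₀ * z₁ * (h * g₀)⁻¹ = z₂
      rw [mul_inv_rev]
      calc h * g₀ * z₁ * (g₀⁻¹ * h⁻¹) = h * (g₀ * z₁ * g₀⁻¹) * h⁻¹ := by group
        _ = h * z₂ * h⁻¹ := by rw [hg₀]
        _ = z₂ := by rw [hcomm]; group
    · intro x hx
      obtain ⟨t, ht, htx⟩ := hconj x hx
      refine ⟨t, hT₁ ht, ?_⟩
      have htx' : g₀ * t * g₀⁻¹ = h⁻¹ * x * h := htx
      show h * g₀ * t * (h * g₀)⁻¹ = x
      rw [mul_inv_rev]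
      calc h * g₀ * t * (g₀⁻¹ * h⁻¹) = h * (g₀ * t * g₀⁻¹) * h⁻¹ := by group
        _ = h * (h⁻¹ * x * h) * h⁻¹ := by rw [htx']
        _ = x := by group
  have hKcard : 3 * 2 ^ e ∣ Nat.card K := by
    have h3 : 3 ∣ Nat.card K := by
      rw [← h3₂.orderOf]
      exact Subgroup.orderOf_dvd_natCard K (Subgroup.mem_sup_left (Subgroup.mem_zpowers z₂))
    have h2 : 2 ^ e ∣ Nat.card K := by
      rw [← cT₂]; exact Subgroup.card_dvd_of_le le_sup_right
    exact Nat.Coprime.mul_dvd_of_dvd_of_dvd (Nat.Coprime.pow_right _ (by norm_num)) h3 h2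
  have hKpos : 0 < Nat.card K := Nat.card_pos
  have hKge : 3 * 2 ^ e ≤ Nat.card K := Nat.le_of_dvd hKpos hKcard
  have e₂ : K = N₂ := Subgroup.eq_of_le_of_card_ge hK₂ (by rw [c₂]; exact hKge)
  have e₁ : K = N₁.map (MulAut.conj (h * g₀)).toMonoidHom :=
    Subgroup.eq_of_le_of_card_ge hK₁ (by
      rw [Subgroup.card_map_of_injective (MulAut.conj (h * g₀)).injective, c₁]; exact hKge)
  rw [← e₂, e₁]

theorem alt_fact (k : ℕ) (hk : 2 ≤ k) :
    (k.factorial).factorization 2 =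
      (Nat.card (alternatingGroup (Fin k))).factorization 2 + 1 := by
  have hnt : Nontrivial (Fin k) := Fin.nontrivial_iff_two_le.mpr hk
  have h1 := two_mul_nat_card_alternatingGroup (α := Fin k)
  rw [Nat.card_perm, Nat.card_fin] at h1
  have hA0 : Nat.card (alternatingGroup (Fin k)) ≠ 0 := Nat.card_pos.ne'
  rw [← h1, Nat.factorization_mul (by norm_num) hA0]
  simp [Nat.Prime.factorization_self Nat.prime_two]; ring

theorem alt_sylow_card (k : ℕ) (hk : 2 ≤ k) (P : Sylow 2 (alternatingGroup (Fin k))) :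
    2 * Nat.card P = hh k := by
  have : Fact (Nat.Prime 2) := ⟨Nat.prime_two⟩
  rw [Sylow.card_eq_multiplicity]
  show _ = 2 ^ (k.factorial).factorization 2
  rw [alt_fact k hk, pow_succ]; ring

theorem exists_M_alt (n : ℕ) (h3 : 3 ≤ n) (P : Sylow 2 (alternatingGroup (Fin (n - 3)))) :
    ∃ M : Subgroup (alternatingGroup (Fin n)), Group.IsNilpotent M ∧
      Nat.card M = 3 * Nat.card P ∧
      Nonempty (M ≃* (↥(P : Subgroup (alternatingGroup (Fin (n - 3)))) ×
        Multiplicative (ZMod 3))) := by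
  have hp2 : Fact (Nat.Prime 2) := ⟨Nat.prime_two⟩
  have hcard : Fintype.card (Fin (n - 3) ⊕ Multiplicative (ZMod 3)) = n := by
    rw [Fintype.card_sum, Fintype.card_fin, Fintype.card_multiplicative, ZMod.card]; omega
  let e : Fin (n - 3) ⊕ Multiplicative (ZMod 3) ≃ Fin n := Fintype.equivFinOfCardEq hcard
  let f₂ : Multiplicative (ZMod 3) →* Equiv.Perm (Multiplicative (ZMod 3)) :=
    MulAction.toPermHom (Multiplicative (ZMod 3)) (Multiplicative (ZMod 3))
  have hf₂ : Function.Injective f₂ := MulAction.toPerm_injective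
  let f₁ : ↥(P : Subgroup (alternatingGroup (Fin (n - 3)))) →* Equiv.Perm (Fin (n - 3)) :=
    (alternatingGroup (Fin (n - 3))).subtype.comp
      (P : Subgroup (alternatingGroup (Fin (n - 3)))).subtype
  have hf₁ : Function.Injective f₁ :=
    (Subgroup.subtype_injective _).comp (Subgroup.subtype_injective _)
  let ψ : ↥(P : Subgroup (alternatingGroup (Fin (n - 3)))) × Multiplicative (ZMod 3) →*
      Equiv.Perm (Fin n) :=
    (Equiv.permCongrHom e).toMonoidHom.comp
      ((Equiv.Perm.sumCongrHom _ _).comp (MonoidHom.prodMap f₁ f₂))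
  have hψ : Function.Injective ψ := by
    apply (Equiv.permCongrHom e).injective.comp
    apply Equiv.Perm.sumCongrHom_injective.comp
    exact Function.Injective.prodMap hf₁ hf₂
  have hsign : ∀ x, ψ x ∈ alternatingGroup (Fin n) := by
    intro x
    rw [Equiv.Perm.mem_alternatingGroup]
    have h1 : ψ x = e.permCongr (Equiv.Perm.sumCongr (f₁ x.1) (f₂ x.2)) := rfl
    rw [h1, Equiv.Perm.sign_permCongr, Equiv.Perm.sign_sumCongr]
    have h2 : Equiv.Perm.sign (f₁ x.1) = 1 := Equiv.Perm.mem_alternatingGroup.mp (x.1.1).2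
    have h3 : Equiv.Perm.sign (f₂ x.2) = 1 := by
      have hc : x.2 ^ 3 = 1 := by
        have := pow_card_eq_one' (G := Multiplicative (ZMod 3)) (x := x.2)
        rwa [Nat.card_eq_fintype_card, Fintype.card_multiplicative, ZMod.card] at this
      have h4 : (Equiv.Perm.sign (f₂ x.2)) ^ 3 = 1 := by
        rw [← map_pow, ← map_pow, hc, map_one, map_one]
      have h5 := Int.units_sq (Equiv.Perm.sign (f₂ x.2))
      calc Equiv.Perm.sign (f₂ x.2)
          = (Equiv.Perm.sign (f₂ x.2)) ^ 2 * Equiv.Perm.sign (f₂ x.2) := by rw [h5, one_mul]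
        _ = (Equiv.Perm.sign (f₂ x.2)) ^ 3 := by rw [← pow_succ]
        _ = 1 := h4
    rw [h2, h3, one_mul]
  let ψA : ↥(P : Subgroup (alternatingGroup (Fin (n - 3)))) × Multiplicative (ZMod 3) →*
      alternatingGroup (Fin n) := ψ.codRestrict (alternatingGroup (Fin n)) hsign
  have hψA : Function.Injective ψA := by
    intro a b hab
    apply hψ
    exact congrArg Subtype.val hab
  have hPn : Group.IsNilpotent ↥(P : Subgroup (alternatingGroup (Fin (n - 3)))) :=
    IsPGroup.isNilpotent P.2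
  have hnil : Group.IsNilpotent (↥(P : Subgroup (alternatingGroup (Fin (n - 3)))) ×
      Multiplicative (ZMod 3)) := inferInstance
  refine ⟨ψA.range, Group.nilpotent_of_surjective ψA.rangeRestrict ψA.rangeRestrict_surjective,
    ?_, ⟨(MonoidHom.ofInjective hψA).symm⟩⟩
  rw [← Nat.card_congr (MonoidHom.ofInjective hψA).toEquiv, Nat.card_prod,
    Nat.card_eq_fintype_card (α := Multiplicative (ZMod 3)), Fintype.card_multiplicative,
    ZMod.card, mul_comm]

end Cfsg.Agent.Lib.Helper8.NilAlt3
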