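import Mathlib
import Cfsg.Agent.Lib.Helper8.NilNum
import Cfsg.Agent.Lib.Helper8.NilGen

set_option autoImplicit false

namespace Cfsg.Agent.Lib.Helper8.NilNum3

open Nat
open Cfsg.Agent.Lib.Helper8.NilNum
open Cfsg.Agent.Lib.Helper8.NilGen

/-- exponent of 3 in `n!` -/
def e3 (n : ℕ) : ℕ := (n !).factorization 3

/-- the 3-part of `n!` -/
def tt (n : ℕ) : ℕ := 3 ^ e3 n

theorem tt_pos (n : ℕ) : 0 < tt n := by unfold tt; positivity

theorem e3_add (a b : ℕ) : e3 a + e3 b ≤ e3 (a + b) := by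
  unfold e3
  have h := Nat.factorial_mul_factorial_dvd_factorial_add a b
  have h2 := (Nat.factorization_le_iff_dvd
    (mul_ne_zero (Nat.factorial_ne_zero a) (Nat.factorial_ne_zero b))
    (Nat.factorial_ne_zero (a+b))).mpr h
  have h3 := h2 3
  rw [Nat.factorization_mul (Nat.factorial_ne_zero a) (Nat.factorial_ne_zero b)] at h3
  simpa using h3

theorem tt_mul_le (a b : ℕ) : tt a * tt b ≤ tt (a + b) := by
  unfold tt
  rw [← pow_add]
  exact Nat.pow_le_pow_right (by norm_num) (e3_add a b)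

theorem e3_zero : e3 0 = 0 := by simp [e3]

theorem e3_one : e3 1 = 0 := by simp [e3]

theorem tt_zero : tt 0 = 1 := by simp [tt, e3_zero]

theorem tt_one : tt 1 = 1 := by simp [tt, e3_one]

theorem tt_mono {a b : ℕ} (h : a ≤ b) : tt a ≤ tt b := by
  obtain ⟨c, rfl⟩ := Nat.exists_eq_add_of_le h
  calc tt a = tt a * 1 := by ring
    _ ≤ tt a * tt c := Nat.mul_le_mul_left _ (tt_pos c)
    _ ≤ tt (a + c) := tt_mul_le a c

theorem e3_three_mul (m : ℕ) : e3 (3 * m) = e3 m + m := by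
  unfold e3
  rw [Nat.factorization_def _ Nat.prime_three, Nat.factorization_def _ Nat.prime_three]
  have : Fact (Nat.Prime 3) := ⟨Nat.prime_three⟩
  exact padicValNat_factorial_mul m

theorem e3_three_mul_add (m r : ℕ) (hr : r < 3) : e3 (3 * m + r) = e3 (3 * m) := by
  unfold e3
  rw [Nat.factorization_def _ Nat.prime_three, Nat.factorization_def _ Nat.prime_three]
  have : Fact (Nat.Prime 3) := ⟨Nat.prime_three⟩
  exact padicValNat_factorial_mul_add m hr

theorem e3_rec (n : ℕ) : e3 n = n / 3 + e3 (n / 3) := by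
  have h := Nat.div_add_mod n 3
  have hr : n % 3 < 3 := Nat.mod_lt _ (by norm_num)
  have h2 : e3 n = e3 (3 * (n / 3) + n % 3) := by rw [h]
  rw [h2, e3_three_mul_add _ _ hr, e3_three_mul, add_comm]

theorem ee_rec (n : ℕ) : ee n = n / 2 + ee (n / 2) := by
  have h := Nat.div_add_mod n 2
  have h2 : ee n = ee (2 * (n / 2) + n % 2) := by rw [h]
  rcases Nat.mod_two_eq_zero_or_one n with h0 | h1
  · rw [h2, h0, add_zero, ee_two_mul, add_comm]
  · rw [h2, h1, ee_two_mul_add_one, ee_two_mul, add_comm]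

/-- fuel-recursive computable version of `e3` -/
def e3c : ℕ → ℕ → ℕ
  | 0, _ => 0
  | f + 1, n => n / 3 + e3c f (n / 3)

/-- fuel-recursive computable version of `ee` -/
def eec : ℕ → ℕ → ℕ
  | 0, _ => 0
  | f + 1, n => n / 2 + eec f (n / 2)

theorem e3c_eq : ∀ (f n : ℕ), n ≤ f → e3c f n = e3 n := by
  intro f
  induction f with
  | zero =>
    intro n hn
    have : n = 0 := by omega
    subst this
    simp [e3c, e3_zero]
  | succ f ih =>
    intro n hn
    rw [e3_rec n]
    show n / 3 + e3c f (n / 3) = _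
    rw [ih (n / 3) (by omega)]

theorem eec_eq : ∀ (f n : ℕ), n ≤ f → eec f n = ee n := by
  intro f
  induction f with
  | zero =>
    intro n hn
    have : n = 0 := by omega
    subst this
    simp [eec, ee_zero]
  | succ f ih =>
    intro n hn
    rw [ee_rec n]
    show n / 2 + eec f (n / 2) = _
    rw [ih (n / 2) (by omega)]

theorem tt_num (n : ℕ) (h : n ≤ 40) : tt n = 3 ^ e3c 40 n := by
  unfold tt; rw [e3c_eq 40 n h]

theorem hh_num (n : ℕ) (h : n ≤ 40) : hh n = 2 ^ eec 40 n := by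
  unfold hh; rw [eec_eq 40 n h]

theorem wreath3 (p n : ℕ) (hn : n ≠ 0) : tt p * tt n ^ p ≤ tt (p * n) := by
  unfold tt
  rw [← pow_mul, ← pow_add]
  apply Nat.pow_le_pow_right (by norm_num)
  unfold e3
  have h := Nat.uniformBell_mul_eq p hn
  have hd : n ! ^ p * p ! ∣ (p * n)! := by
    rw [← h, mul_assoc]; exact Dvd.intro_left _ rfl
  have h2 := (Nat.factorization_le_iff_dvd
    (mul_ne_zero (pow_ne_zero _ (Nat.factorial_ne_zero n)) (Nat.factorial_ne_zero p))
    (Nat.factorial_ne_zero (p * n))).mpr hd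
  have h3 := h2 3
  rw [Nat.factorization_mul (pow_ne_zero _ (Nat.factorial_ne_zero n)) (Nat.factorial_ne_zero p),
    Nat.factorization_pow] at h3
  simp only [Finsupp.coe_add, Pi.add_apply, Finsupp.coe_smul, Pi.smul_apply, smul_eq_mul] at h3
  linarith [mul_comm ((n !).factorization 3) p]

theorem Qpow (m : ℕ) (hm : 8 ≤ m) : 3 ^ m ≤ 2 ^ m * hh m := by
  induction m using Nat.strong_induction_on with
  | _ m ih =>
  by_cases h12 : m < 12
  · clear ih
    rw [hh_num m (by omega)]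
    interval_cases m <;> decide
  · obtain ⟨j, rfl⟩ : ∃ j, m = j + 4 := ⟨m - 4, by omega⟩
    have h := ih j (by omega) (by omega)
    have h4 : hh 4 = 8 := by rw [hh_num 4 (by norm_num)]; decide
    have hm4 : hh j * hh 4 ≤ hh (j + 4) := hh_mul_le j 4
    rw [h4] at hm4
    calc 3 ^ (j + 4) = 3 ^ j * 81 := by rw [pow_add]; norm_num
      _ ≤ (2 ^ j * hh j) * 81 := Nat.mul_le_mul_right _ h
      _ ≤ (2 ^ j * hh j) * 128 := Nat.mul_le_mul_left _ (by norm_num)
      _ = 2 ^ (j + 4) * (hh j * 8) := by rw [pow_add]; ring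
      _ ≤ 2 ^ (j + 4) * hh (j + 4) := Nat.mul_le_mul_left _ hm4

theorem Pmain (n : ℕ) (hn : 10 ≤ n) : 2 * tt n ≤ hh n := by
  induction n using Nat.strong_induction_on with
  | _ n ih =>
  by_cases h30 : n < 30
  · clear ih
    rw [hh_num n (by omega), tt_num n (by omega)]
    interval_cases n <;> decide
  · have hm : 10 ≤ n / 3 := by omega
    have h1 := ih (n / 3) (by omega) hm
    have h2 := Qpow (n / 3) (by omega)
    have e : tt n = 3 ^ (n / 3) * tt (n / 3) := by
      unfold tt; rw [e3_rec n, pow_add]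
    have h3 : hh (n / 3) * hh (2 * (n / 3)) ≤ hh n :=
      (hh_mul_le _ _).trans (hh_mono (by omega))
    rw [hh_two_mul] at h3
    rw [e]
    calc 2 * (3 ^ (n / 3) * tt (n / 3)) = 3 ^ (n / 3) * (2 * tt (n / 3)) := by ring
      _ ≤ (2 ^ (n / 3) * hh (n / 3)) * hh (n / 3) := Nat.mul_le_mul h2 h1
      _ = hh (n / 3) * (2 ^ (n / 3) * hh (n / 3)) := by ring
      _ ≤ hh n := h3

theorem claimA (n : ℕ) (h0 : n ≠ 0) (h1 : n ≠ 1) (h3 : n ≠ 3) (h6 : n ≠ 6) (h7 : n ≠ 7)
    (h9 : n ≠ 9) : 2 * tt n ≤ hh n := by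
  by_cases h10 : 10 ≤ n
  · exact Pmain n h10
  · rw [hh_num n (by omega), tt_num n (by omega)]
    have : n < 10 := by omega
    interval_cases n <;> first | contradiction | decide

/-- the bound for nilpotent subgroups of odd order of the symmetric group of degree `n` -/
def QQ (n : ℕ) : ℕ := max (tt n) (if 5 ≤ n then 5 * tt (n - 5) else 0)

theorem QQ_cases (n : ℕ) : QQ n = tt n ∨ (5 ≤ n ∧ QQ n = 5 * tt (n - 5)) := by
  unfold QQ
  rcases le_total (tt n) (if 5 ≤ n then 5 * tt (n - 5) else 0) with h | h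
  · right
    by_cases h5 : 5 ≤ n
    · rw [if_pos h5] at h ⊢; exact ⟨h5, max_eq_right h⟩
    · rw [if_neg h5] at h; have := tt_pos n; omega
  · left; exact max_eq_left h

theorem tt_le_QQ (n : ℕ) : tt n ≤ QQ n := le_max_left _ _

theorem five_le_QQ (n : ℕ) (h : 5 ≤ n) : 5 * tt (n - 5) ≤ QQ n := by
  unfold QQ; rw [if_pos h]; exact le_max_right _ _

theorem QQ_pos (n : ℕ) : 0 < QQ n := lt_of_lt_of_le (tt_pos n) (tt_le_QQ n)

theorem tt_ten : 25 ≤ tt 10 := by rw [tt_num 10 (by norm_num)]; decide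

theorem QQ_mul_le (a b : ℕ) : QQ a * QQ b ≤ QQ (a + b) := by
  rcases QQ_cases a with ha | ⟨ha5, ha⟩ <;> rcases QQ_cases b with hb | ⟨hb5, hb⟩ <;> rw [ha, hb]
  · exact (tt_mul_le a b).trans (tt_le_QQ _)
  · calc tt a * (5 * tt (b - 5)) = 5 * (tt a * tt (b - 5)) := by ring
      _ ≤ 5 * tt (a + (b - 5)) := Nat.mul_le_mul_left _ (tt_mul_le _ _)
      _ = 5 * tt (a + b - 5) := by congr 2; omega
      _ ≤ QQ (a + b) := five_le_QQ _ (by omega)
  · calc 5 * tt (a - 5) * tt b = 5 * (tt (a - 5) * tt b) := by ring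
      _ ≤ 5 * tt (a - 5 + b) := Nat.mul_le_mul_left _ (tt_mul_le _ _)
      _ = 5 * tt (a + b - 5) := by congr 2; omega
      _ ≤ QQ (a + b) := five_le_QQ _ (by omega)
  · calc 5 * tt (a - 5) * (5 * tt (b - 5)) = 25 * (tt (a - 5) * tt (b - 5)) := by ring
      _ ≤ tt 10 * tt (a - 5 + (b - 5)) := Nat.mul_le_mul tt_ten (tt_mul_le _ _)
      _ ≤ tt (10 + (a - 5 + (b - 5))) := tt_mul_le _ _
      _ = tt (a + b) := by congr 1; omega
      _ ≤ QQ (a + b) := tt_le_QQ _

theorem QQ_mono (a b : ℕ) (h : a ≤ b) : QQ a ≤ QQ b := by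
  obtain ⟨c, rfl⟩ := Nat.exists_eq_add_of_le h
  calc QQ a = QQ a * 1 := by ring
    _ ≤ QQ a * QQ c := Nat.mul_le_mul_left _ (QQ_pos c)
    _ ≤ QQ (a + c) := QQ_mul_le a c

theorem three_pow_ge (q : ℕ) (hq : 2 ≤ q) : 3 * q + 3 ≤ 3 ^ q := by
  induction q with
  | zero => omega
  | succ q ih =>
    rcases Nat.lt_or_ge q 2 with h | h
    · have : q = 1 := by omega
      subst this; norm_num
    · have := ih h
      rw [pow_succ]; omega

theorem le_tt (p : ℕ) (hp : 6 ≤ p) : p ≤ tt p := by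
  have h1 : 3 ^ (p / 3) ≤ tt p := by
    unfold tt
    apply Nat.pow_le_pow_right (by norm_num)
    rw [e3_rec p]; omega
  have h2 := three_pow_ge (p / 3) (by omega)
  omega

theorem big_prime3 (p : ℕ) (hp : p.Prime) (h6 : 6 ≤ p) (a : ℕ) : p ^ EE p a ≤ tt (p ^ a) := by
  induction a with
  | zero => simp [EE_zero, tt_one]
  | succ a ih =>
    rw [LL_succ p a hp]
    calc p * (p ^ EE p a) ^ p ≤ tt p * tt (p ^ a) ^ p :=
          Nat.mul_le_mul (le_tt p h6) (Nat.pow_le_pow_left ih p)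
      _ ≤ tt (p * p ^ a) := wreath3 p (p ^ a) (pow_ne_zero _ hp.ne_zero)
      _ = tt (p ^ (a + 1)) := by rw [pow_succ, mul_comm]

theorem five_prime (a : ℕ) : 2 * 5 ^ EE 5 (a + 2) ≤ tt (5 ^ (a + 2)) := by
  induction a with
  | zero =>
    have e1 : EE 5 1 = 1 := by
      have := EE_succ' 5 0 Nat.prime_five
      simpa [EE_zero] using this
    have e2 : EE 5 2 = 6 := by
      have := EE_succ' 5 1 Nat.prime_five
      simpa [e1] using this
    simp only [zero_add, e2]
    rw [show (5 : ℕ) ^ 2 = 25 by norm_num, tt_num 25 (by norm_num)]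
    decide
  | succ a ih =>
    rw [LL_succ 5 (a + 2) Nat.prime_five]
    have hw := wreath3 5 (5 ^ (a + 2)) (by positivity)
    have h5 : tt 5 = 3 := by rw [tt_num 5 (by norm_num)]; decide
    rw [h5] at hw
    have e : 5 * 5 ^ (a + 2) = 5 ^ (a + 1 + 2) := by ring
    rw [e] at hw
    have h32 : (2 * 5 ^ EE 5 (a + 2)) ^ 5 ≤ (tt (5 ^ (a + 2))) ^ 5 :=
      Nat.pow_le_pow_left ih 5
    rw [mul_pow] at h32
    generalize (5 ^ EE 5 (a + 2)) ^ 5 = X at *
    generalize tt (5 ^ (a + 2)) ^ 5 = Y at *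
    generalize tt (5 ^ (a + 1 + 2)) = Z at *
    norm_num at h32
    omega

theorem odd_pbound (p : ℕ) (hp : p.Prime) (h2 : p ≠ 2) (a : ℕ) :
    p ^ ((p ^ a)!).factorization p ≤ QQ (p ^ a) := by
  change p ^ EE p a ≤ QQ (p ^ a)
  rcases Nat.lt_or_ge p 6 with h6 | h6
  · have hp35 : p = 3 ∨ p = 5 := by
      have := hp.two_le
      interval_cases p
      · exact absurd rfl h2
      · left; rfl
      · exact absurd hp (by norm_num)
      · right; rfl
    rcases hp35 with rfl | rfl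
    · exact (show 3 ^ EE 3 a = tt (3 ^ a) from rfl).le.trans (tt_le_QQ _)
    · rcases a with _ | _ | a
      · simp [EE_zero]; exact QQ_pos 1
      · have e1 : EE 5 1 = 1 := by
          have := EE_succ' 5 0 Nat.prime_five
          simpa [EE_zero] using this
        have := five_le_QQ 5 le_rfl
        simp only [Nat.sub_self, tt_zero, mul_one] at this
        simpa [e1] using this
      · have := five_prime a
        have h2 : tt (5 ^ (a + 2)) ≤ QQ (5 ^ (a + 2)) := tt_le_QQ _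
        show 5 ^ EE 5 (a + 2) ≤ QQ (5 ^ (a + 2))
        omega
  · exact (big_prime3 p hp h6 a).trans (tt_le_QQ _)

theorem good_QQ : Good (fun p => p ≠ 2) QQ where
  pos := QQ_pos
  mul_le := QQ_mul_le
  mono := QQ_mono
  pbound := fun p hp h2 a => odd_pbound p hp h2 a

theorem hh_five : hh 5 = 8 := by rw [hh_num 5 (by norm_num)]; decide

theorem ten_tt (m : ℕ) (h : 2 * tt m ≤ hh m) : 10 * tt m ≤ hh (m + 5) := by
  have h1 : hh m * hh 5 ≤ hh (m + 5) := hh_mul_le m 5
  rw [hh_five] at h1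
  omega

/-- the numeric fact behind the alternating bound when `n % 4 ≠ 3` -/
theorem final1 (n : ℕ) (hn : n % 4 ≠ 3) (h5 : n ≠ 5) (h6 : n ≠ 6) (h9 : n ≠ 9) (h3 : 3 ≤ n) :
    2 * QQ n ≤ hh n := by
  rcases QQ_cases n with h | ⟨h5', h⟩ <;> rw [h]
  · exact claimA n (by omega) (by omega) (by omega) h6 (by omega) h9
  · by_cases hs : n = 8 ∨ n = 12 ∨ n = 14
    · rcases hs with rfl | rfl | rfl
      · rw [hh_num 8 (by norm_num), tt_num (8 - 5) (by norm_num)]; decide
      · rw [hh_num 12 (by norm_num), tt_num (12 - 5) (by norm_num)]; decide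
      · rw [hh_num 14 (by norm_num), tt_num (14 - 5) (by norm_num)]; decide
    · push Not at hs
      have hA := claimA (n - 5) (by omega) (by omega) (by omega) (by omega) (by omega) (by omega)
      have := ten_tt (n - 5) hA
      have e : n - 5 + 5 = n := by omega
      rw [e] at this
      omega

theorem hh_mod3 (n : ℕ) (hn : n % 4 = 3) : hh n = 2 * hh (n - 3) := by
  obtain ⟨q, rfl⟩ : ∃ q, n = 4 * q + 3 := ⟨n / 4, by omega⟩
  rw [hh_four_mul_add_three, show 4 * q + 3 - 3 = 4 * q by omega, hh_four_mul]; ring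

/-- the numeric fact behind the alternating bound when `n % 4 = 3` -/
theorem final2 (n : ℕ) (hn : n % 4 = 3) (h7 : 7 ≤ n) : 2 * QQ n ≤ 3 * hh (n - 3) := by
  have hh3 := hh_mod3 n hn
  rcases QQ_cases n with h | ⟨h5', h⟩ <;> rw [h]
  · by_cases hs : n = 7
    · subst hs
      rw [hh_num (7 - 3) (by norm_num), tt_num 7 (by norm_num)]; decide
    · have := claimA n (by omega) (by omega) (by omega) (by omega) hs (by omega)
      omega
  · by_cases hs : n = 11
    · subst hs
      rw [hh_num (11 - 3) (by norm_num), tt_num (11 - 5) (by norm_num)]; decide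
    · have hA := claimA (n - 5) (by omega) (by omega) (by omega) (by omega) (by omega) (by omega)
      have := ten_tt (n - 5) hA
      have e : n - 5 + 5 = n := by omega
      rw [e] at this
      omega

end Cfsg.Agent.Lib.Helper8.NilNum3
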