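import Mathlib
import Cfsg.Agent.S3820
import Cfsg.Agent.Lib.Helper8.SelfNormC

set_option autoImplicit false
set_option linter.unusedVariables false
set_option linter.unusedSectionVars false

namespace Cfsg.Agent.Lib.Helper8.SelfNorm

open Cfsg.Agent.Lib.Helper8.NilPerm3

theorem map_conj_of_mem {G : Type*} [Group G] (H : Subgroup G) (g : G) (hg : g ∈ H) :
    H.map (MulAut.conj g).toMonoidHom = H := by
  apply le_antisymm
  · exact Cfsg.Agent.S3820.map_conj_le_of_mem H H g le_rfl hg
  · intro y hy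
    refine ⟨g⁻¹ * y * g, H.mul_mem (H.mul_mem (H.inv_mem hg) hy) hg, ?_⟩
    simp [mul_assoc]

/-- a subgroup whose order is the full 2-part of the group order is pronormal -/
theorem sylow2_pronormal {G : Type*} [Group G] [Finite G] (S : Subgroup G)
    (hS : Nat.card S = 2 ^ (Nat.card G).factorization 2) : Cfsg.IsPronormal S := by
  intro g
  obtain ⟨K, hK⟩ : ∃ K : Subgroup G, K = S ⊔ S.map (MulAut.conj g).toMonoidHom := ⟨_, rfl⟩
  have h1 : S ≤ K := hK ▸ le_sup_left
  have h2 : S.map (MulAut.conj g).toMonoidHom ≤ K := hK ▸ le_sup_right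
  have hc2 : Nat.card (S.map (MulAut.conj g).toMonoidHom) = Nat.card S :=
    Subgroup.card_map_of_injective (fun a b hab => (MulAut.conj g).injective hab)
  have hfac : (Nat.card K).factorization 2 = (Nat.card G).factorization 2 := by
    apply le_antisymm
    · exact (Nat.factorization_le_iff_dvd Nat.card_pos.ne' Nat.card_pos.ne').mpr
        (Subgroup.card_subgroup_dvd_card K) 2
    · have : 2 ^ (Nat.card G).factorization 2 ∣ Nat.card K := hS ▸ Subgroup.card_dvd_of_le h1
      exact (Nat.Prime.pow_dvd_iff_le_factorization Nat.prime_two Nat.card_pos.ne').mp this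
  obtain ⟨x, hxK, hx⟩ := syl_conj K S (S.map (MulAut.conj g).toMonoidHom) h1 h2
    (by rw [hS, hfac]) (by rw [hc2, hS, hfac])
  refine ⟨x, hK ▸ hxK, ?_⟩
  have hle : S.map (MulAut.conj g).toMonoidHom ≤ S.map (MulAut.conj x).toMonoidHom := by
    intro y hy
    refine ⟨x⁻¹ * y * x, hx y hy, ?_⟩
    simp [mul_assoc]
  apply Subgroup.eq_of_le_of_card_ge hle
  rw [hc2, Subgroup.card_map_of_injective (fun a b hab => (MulAut.conj x).injective hab)]

/-- a subgroup of odd index contains a subgroup whose order is the full 2-part -/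
theorem exists_sylow2_le {G : Type*} [Group G] [Finite G] (H : Subgroup G) (hH : Odd H.index) :
    ∃ S : Subgroup G, S ≤ H ∧ Nat.card S = 2 ^ (Nat.card G).factorization 2 := by
  have hp2 : Fact (Nat.Prime 2) := ⟨Nat.prime_two⟩
  obtain ⟨Q⟩ : Nonempty (Sylow 2 H) := inferInstance
  refine ⟨(Q : Subgroup H).map H.subtype, Subgroup.map_subtype_le _, ?_⟩
  rw [Subgroup.card_map_of_injective H.subtype_injective, Sylow.card_eq_multiplicity]
  congr 1
  have h1 := Subgroup.card_mul_index H
  rw [← h1, Nat.factorization_mul Nat.card_pos.ne' hH.pos.ne']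
  simp [Nat.factorization_eq_zero_of_not_dvd hH.not_two_dvd_nat]

theorem alt_pronormal_of_six (n : ℕ) (hn : 6 ≤ n) (H : Subgroup (alternatingGroup (Fin n)))
    (hH : Odd H.index) : Cfsg.IsPronormal H := by
  have hp2 : Fact (Nat.Prime 2) := ⟨Nat.prime_two⟩
  obtain ⟨S, hSH, hScard⟩ := exists_sylow2_le H hH
  have hSp := sylow2_pronormal S hScard
  rw [Cfsg.Agent.S3820.result S H hSH hSp]
  intro g hg
  obtain ⟨R, hR⟩ : ∃ R : Sylow 2 (alternatingGroup (Fin n)),
      (R : Subgroup (alternatingGroup (Fin n))) = S := ⟨Sylow.ofCard S hScard, rfl⟩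
  have hgS : g ∈ S := by
    rw [← hR]; exact alt_self_norm n hn R g (by rw [hR]; exact hg)
  refine ⟨1, one_mem _, ?_⟩
  rw [Cfsg.Agent.S3820.map_conj_one]
  exact map_conj_of_mem H g (hSH hgS)

set_option maxRecDepth 100000 in
theorem arith60 : ∀ a : Fin 61, ∀ k : Fin 61,
    (4 ∣ a.1 → a.1 ∣ k.1 → k.1 ∣ 60 → a.1 < k.1 → a.1 ≠ 4 → k.1 = 60) := by
  decide

theorem alt_pronormal_five (H : Subgroup (alternatingGroup (Fin 5))) (hH : Odd H.index) :
    Cfsg.IsPronormal H := by
  have hcardG : Nat.card (alternatingGroup (Fin 5)) = 60 := by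
    have h := two_mul_nat_card_alternatingGroup (α := Fin 5)
    rw [Nat.card_perm, Nat.card_eq_fintype_card (α := Fin 5), Fintype.card_fin] at h
    have : Nat.factorial 5 = 120 := by decide
    omega
  have hfac : (60 : ℕ).factorization 2 = 2 := by
    have e : (60 : ℕ) = 2 ^ 2 * 15 := by norm_num
    rw [e, Nat.factorization_mul (by norm_num) (by norm_num),
      Nat.Prime.factorization_pow Nat.prime_two]
    simp [Nat.factorization_eq_zero_of_not_dvd (by norm_num : ¬ 2 ∣ 15)]
  obtain ⟨S, hSH, hScard⟩ := exists_sylow2_le H hH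
  have hSp := sylow2_pronormal S hScard
  have hS4 : Nat.card S = 4 := by
    rw [hScard, hcardG, hfac]
    norm_num
  rw [Cfsg.Agent.S3820.result S H hSH hSp]
  intro g hg
  by_cases heq : H.map (MulAut.conj g).toMonoidHom = H
  · exact ⟨1, one_mem _, by rw [Cfsg.Agent.S3820.map_conj_one]; exact heq⟩
  obtain ⟨K, hK⟩ : ∃ K : Subgroup (alternatingGroup (Fin 5)),
      K = H ⊔ H.map (MulAut.conj g).toMonoidHom := ⟨_, rfl⟩
  have h1 : H ≤ K := hK ▸ le_sup_left
  have h2 : H.map (MulAut.conj g).toMonoidHom ≤ K := hK ▸ le_sup_right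
  have hc2 : Nat.card (H.map (MulAut.conj g).toMonoidHom) = Nat.card H :=
    Subgroup.card_map_of_injective (fun a b hab => (MulAut.conj g).injective hab)
  have hd1 : 4 ∣ Nat.card H := hS4 ▸ Subgroup.card_dvd_of_le hSH
  have hd2 : Nat.card H ∣ Nat.card K := Subgroup.card_dvd_of_le h1
  have hd3 : Nat.card K ∣ 60 := hcardG ▸ Subgroup.card_subgroup_dvd_card K
  have hne4 : Nat.card H ≠ 4 := by
    intro h4
    apply heq
    have hSeq : S = H := Subgroup.eq_of_le_of_card_ge hSH (by rw [h4, hS4])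
    rw [← hSeq]
    exact Subgroup.mem_normalizer_iff_map_conj_eq.mp hg
  have hlt : Nat.card H < Nat.card K := by
    by_contra hcon
    push Not at hcon
    have hKH : H = K := Subgroup.eq_of_le_of_card_ge h1 hcon
    apply heq
    exact Subgroup.eq_of_le_of_card_ge (le_trans h2 (le_of_eq hKH.symm)) (by rw [hc2])
  have hk60 : Nat.card K ≤ 60 := Nat.le_of_dvd (by norm_num) hd3
  have hK60 : Nat.card K = 60 :=
    arith60 ⟨Nat.card H, by omega⟩ ⟨Nat.card K, by omega⟩ hd1 hd2 hd3 hlt hne4
  have hKtop : K = ⊤ := (Subgroup.card_eq_iff_eq_top K).mp (by rw [hK60, hcardG])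
  exact ⟨g, by rw [← hK, hKtop]; exact Subgroup.mem_top g, rfl⟩

theorem alt_pronormal (n : ℕ) (hn : 5 ≤ n) (H : Subgroup (alternatingGroup (Fin n)))
    (hH : Odd H.index) : Cfsg.IsPronormal H := by
  rcases Nat.lt_or_ge n 6 with h | h
  · have h5 : n = 5 := by omega
    subst h5
    exact alt_pronormal_five H hH
  · exact alt_pronormal_of_six n h H hH

end Cfsg.Agent.Lib.Helper8.SelfNorm
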