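import Mathlib
import Cfsg.Agent.Lib.Helper8.SylMaxA

set_option autoImplicit false

namespace Cfsg.Agent.Lib.Helper8.SylMax

open Cfsg.Agent.Lib.Helper8.NilNum

/-- a subgroup containing a point stabiliser and an element moving the point is everything -/
theorem top_of_stab_of_move {G Ω : Type*} [Group G] [MulAction G Ω] (x₀ : Ω)
    (h2 : ∀ w y : Ω, w ≠ x₀ → y ≠ x₀ → ∃ τ : G, τ • x₀ = x₀ ∧ τ • w = y)
    (J : Subgroup G) (hJ : MulAction.stabilizer G x₀ ≤ J) (g : G) (hg : g ∈ J)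
    (hgx : g • x₀ ≠ x₀) : J = ⊤ := by
  rw [eq_top_iff]
  intro σ _
  by_cases hσ : σ • x₀ = x₀
  · exact hJ (MulAction.mem_stabilizer_iff.mpr hσ)
  · obtain ⟨τ, hτ0, hτ⟩ := h2 (g • x₀) (σ • x₀) hgx hσ
    have hτJ : τ ∈ J := hJ (MulAction.mem_stabilizer_iff.mpr hτ0)
    have e : σ • x₀ = (τ * g) • x₀ := by rw [mul_smul]; exact hτ.symm
    have h : (τ * g)⁻¹ * σ ∈ J := by
      apply hJ
      rw [MulAction.mem_stabilizer_iff, mul_smul, e, inv_smul_smul]
    have : σ = (τ * g) * ((τ * g)⁻¹ * σ) := by group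
    rw [this]
    exact J.mul_mem (J.mul_mem hτJ hg) h

/-- generation by swaps inside and outside a set plus one mixing element -/
theorem top_of_swaps {Ω : Type*} [DecidableEq Ω] [Finite Ω] (J : Subgroup (Equiv.Perm Ω))
    (Δ : Set Ω)
    (h1 : ∀ a b, a ∈ Δ → b ∈ Δ → Equiv.swap a b ∈ J)
    (h2 : ∀ a b, a ∉ Δ → b ∉ Δ → Equiv.swap a b ∈ J)
    (g : Equiv.Perm Ω) (hg : g ∈ J) (x w : Ω) (hx : x ∈ Δ) (hgx : g x ∉ Δ) (hw : g w = w) :
    J = ⊤ := by
  have conj : ∀ (f : Equiv.Perm Ω) (a b : Ω), f ∈ J → Equiv.swap a b ∈ J →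
      Equiv.swap (f a) (f b) ∈ J := by
    intro f a b hf hab
    have : Equiv.swap (f a) (f b) = f * Equiv.swap a b * f⁻¹ := by
      rw [Equiv.mul_swap_eq_swap_mul f a b]; simp
    rw [this]
    exact J.mul_mem (J.mul_mem hf hab) (J.inv_mem hf)
  obtain ⟨u, v, hu, hv, huv⟩ : ∃ u v, u ∈ Δ ∧ v ∉ Δ ∧ Equiv.swap u v ∈ J := by
    by_cases hwΔ : w ∈ Δ
    · refine ⟨w, g x, hwΔ, hgx, ?_⟩
      have := conj g w x hg (h1 w x hwΔ hx)
      rw [hw] at this
      exact this
    · refine ⟨x, w, hx, hwΔ, ?_⟩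
      have h := conj g⁻¹ (g x) w (J.inv_mem hg) (h2 (g x) w hgx hwΔ)
      have e1 : g⁻¹ (g x) = x := by simp
      have e2 : g⁻¹ w = w := by
        rw [Equiv.Perm.inv_eq_iff_eq]; exact hw.symm
      rw [e1, e2] at h
      exact h
  have cross : ∀ a b, a ∈ Δ → b ∉ Δ → Equiv.swap a b ∈ J := by
    intro a b ha hb
    have hf : Equiv.swap a u * Equiv.swap b v ∈ J := J.mul_mem (h1 a u ha hu) (h2 b v hb hv)
    have h := conj _ u v hf huv
    have hub : u ≠ b := fun h => hb (h ▸ hu)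
    have huv' : u ≠ v := fun h => hv (h ▸ hu)
    have hab : a ≠ b := fun h => hb (h ▸ ha)
    have e1 : (Equiv.swap a u * Equiv.swap b v) u = a := by
      rw [Equiv.Perm.mul_apply, Equiv.swap_apply_of_ne_of_ne hub huv', Equiv.swap_apply_right]
    have e2 : (Equiv.swap a u * Equiv.swap b v) v = b := by
      rw [Equiv.Perm.mul_apply, Equiv.swap_apply_right,
        Equiv.swap_apply_of_ne_of_ne hab.symm hub.symm]
    rw [e1, e2] at h
    exact h
  have all : ∀ a b, Equiv.swap a b ∈ J := by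
    intro a b
    by_cases ha : a ∈ Δ <;> by_cases hb : b ∈ Δ
    · exact h1 a b ha hb
    · exact cross a b ha hb
    · rw [Equiv.swap_comm]; exact cross b a hb ha
    · exact h2 a b ha hb
  rw [eq_top_iff, ← Equiv.Perm.closure_isSwap, Subgroup.closure_le]
  rintro σ ⟨a, b, _, rfl⟩
  exact all a b

/-- permutations preserving or flipping a set -/
def blockStab {Ω : Type*} (Δ : Set Ω) : Subgroup (Equiv.Perm Ω) where
  carrier := {g | (∀ x, g x ∈ Δ ↔ x ∈ Δ) ∨ (∀ x, g x ∈ Δ ↔ x ∉ Δ)}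
  mul_mem' := by
    rintro g h (hg | hg) (hh | hh)
    · left; intro x; rw [Equiv.Perm.mul_apply, hg, hh]
    · right; intro x; rw [Equiv.Perm.mul_apply, hg, hh]
    · right; intro x; rw [Equiv.Perm.mul_apply, hg, hh]
    · left; intro x; rw [Equiv.Perm.mul_apply, hg, hh, not_not]
  one_mem' := by left; intro x; rfl
  inv_mem' := by
    rintro g (hg | hg)
    · left; intro x
      have := hg (g⁻¹ x)
      have e : g (g⁻¹ x) = x := by simp
      rw [e] at this
      exact this.symm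
    · right; intro x
      have := hg (g⁻¹ x)
      have e : g (g⁻¹ x) = x := by simp
      rw [e] at this
      tauto

theorem mem_blockStab {Ω : Type*} (Δ : Set Ω) (g : Equiv.Perm Ω) :
    g ∈ blockStab Δ ↔ (∀ x, g x ∈ Δ ↔ x ∈ Δ) ∨ (∀ x, g x ∈ Δ ↔ x ∉ Δ) := Iff.rfl

theorem swap_mem_blockStab {Ω : Type*} [DecidableEq Ω] (Δ : Set Ω) (a b : Ω)
    (h : a ∈ Δ ↔ b ∈ Δ) : Equiv.swap a b ∈ blockStab Δ := by
  rw [mem_blockStab]
  left
  intro w
  by_cases hwa : w = a
  · rw [hwa, Equiv.swap_apply_left]; exact h.symm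
  · by_cases hwb : w = b
    · rw [hwb, Equiv.swap_apply_right]; exact h
    · rw [Equiv.swap_apply_of_ne_of_ne hwa hwb]

theorem blockStab_ne_top {n : ℕ} (hn : 3 ≤ n) (Δ : Set (Fin n)) (x y : Fin n) (hx : x ∈ Δ)
    (hy : y ∉ Δ) : blockStab Δ ≠ ⊤ := by
  intro htop
  obtain ⟨w, hw⟩ := exists_not_mem ({x, y} : Finset (Fin n))
    (lt_of_le_of_lt Finset.card_le_two (by omega))
  simp only [Finset.mem_insert, Finset.mem_singleton, not_or] at hw
  have hmem : Equiv.swap x y ∈ blockStab Δ := htop ▸ Subgroup.mem_top _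
  have hwf : Equiv.swap x y w = w := Equiv.swap_apply_of_ne_of_ne hw.1 hw.2
  rw [mem_blockStab] at hmem
  rcases hmem with h | h
  · have := (h x).mpr hx
    rw [Equiv.swap_apply_left] at this
    exact hy this
  · by_cases hwΔ : w ∈ Δ
    · have := (h w).mp (by rw [hwf]; exact hwΔ)
      exact this hwΔ
    · have := (h w).mpr hwΔ
      rw [hwf] at this
      exact hwΔ this

/-- a transitive finite 2-group of permutations has a block of index two -/
theorem exists_block {Ω : Type*} (P : Subgroup (Equiv.Perm Ω)) [Finite P] (hP : IsPGroup 2 P)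
    (x : Ω) (htr : ∀ y : Ω, ∃ p ∈ P, p x = y) (hnt : ∃ y : Ω, y ≠ x) :
    ∃ Δ : Set Ω, x ∈ Δ ∧ (∃ y, y ∉ Δ) ∧ P ≤ blockStab Δ := by
  have : Fact (Nat.Prime 2) := ⟨Nat.prime_two⟩
  let S : Subgroup P := MulAction.stabilizer P x
  obtain ⟨m, hm⟩ := hP.exists_card_eq
  obtain ⟨a, ha⟩ := (hP.to_subgroup S).exists_card_eq
  have hSne : S ≠ ⊤ := by
    obtain ⟨y, hy⟩ := hnt
    obtain ⟨p, hp, hpx⟩ := htr y
    intro hS
    have h1 : (⟨p, hp⟩ : P) ∈ S := hS ▸ Subgroup.mem_top _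
    rw [MulAction.mem_stabilizer_iff] at h1
    have h2 : p x = x := h1
    exact hy (hpx.symm.trans h2)
  have ham : a < m := by
    have hlt : Nat.card S < Nat.card P := by
      by_contra hge
      push Not at hge
      exact hSne (Subgroup.eq_top_of_le_card S hge)
    rw [hm, ha] at hlt
    exact (Nat.pow_lt_pow_iff_right (by norm_num)).mp hlt
  obtain ⟨K, hK, hSK⟩ := Sylow.exists_subgroup_card_pow_prime_le 2 (n := a) (m := m - 1)
    (by rw [hm]; exact pow_dvd_pow 2 (by omega)) S ha (by omega)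
  have hidx : K.index = 2 := by
    have h := K.card_mul_index
    rw [hK, hm] at h
    have e : 2 ^ m = 2 ^ (m - 1) * 2 := by
      rw [← pow_succ]; congr 1; omega
    rw [e] at h
    exact Nat.eq_of_mul_eq_mul_left (by positivity) h
  let Δ : Set Ω := {w | ∃ q : P, q ∈ K ∧ (q : Equiv.Perm Ω) x = w}
  refine ⟨Δ, ⟨1, K.one_mem, rfl⟩, ?_, ?_⟩
  · have hKne : K ≠ ⊤ := by
      intro h; rw [h, Subgroup.index_top] at hidx; omega
    obtain ⟨p, hp⟩ : ∃ p : P, p ∉ K := by
      by_contra hcon; push Not at hcon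
      exact hKne (eq_top_iff.mpr fun p _ => hcon p)
    refine ⟨(p : Equiv.Perm Ω) x, ?_⟩
    rintro ⟨q, hq, hqx⟩
    have h1 : p⁻¹ * q ∈ S := by
      rw [MulAction.mem_stabilizer_iff]
      show ((p : Equiv.Perm Ω)⁻¹ * (q : Equiv.Perm Ω)) x = x
      rw [Equiv.Perm.mul_apply, hqx]; simp
    have h2 := hSK h1
    have e : p = q * (p⁻¹ * q)⁻¹ := by group
    exact hp (e ▸ K.mul_mem hq (K.inv_mem h2))
  · intro p hp
    rw [mem_blockStab]
    by_cases hpK : (⟨p, hp⟩ : P) ∈ K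
    · left
      intro w
      constructor
      · rintro ⟨q, hq, hqx⟩
        refine ⟨⟨p, hp⟩⁻¹ * q, K.mul_mem (K.inv_mem hpK) hq, ?_⟩
        show (p⁻¹ * (q : Equiv.Perm Ω)) x = w
        rw [Equiv.Perm.mul_apply, hqx]; simp
      · rintro ⟨q, hq, rfl⟩
        exact ⟨⟨p, hp⟩ * q, K.mul_mem hpK hq, rfl⟩
    · right
      intro w
      constructor
      · rintro ⟨q, hq, hqx⟩ ⟨q', hq', rfl⟩
        have h1 : q⁻¹ * ⟨p, hp⟩ * q' ∈ S := by
          rw [MulAction.mem_stabilizer_iff]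
          show ((q : Equiv.Perm Ω)⁻¹ * p * (q' : Equiv.Perm Ω)) x = x
          rw [Equiv.Perm.mul_apply, Equiv.Perm.mul_apply, ← hqx]; simp
        have h2 := hSK h1
        apply hpK
        have e : (⟨p, hp⟩ : P) = q * (q⁻¹ * ⟨p, hp⟩ * q') * q'⁻¹ := by group
        rw [e]
        exact K.mul_mem (K.mul_mem hq h2) (K.inv_mem hq')
      · intro hw
        obtain ⟨r, hr, hrx⟩ := htr w
        have hrK : (⟨r, hr⟩ : P) ∉ K := fun h => hw ⟨⟨r, hr⟩, h, hrx⟩
        have h3 : (⟨p, hp⟩ : P) * ⟨r, hr⟩ ∈ K := by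
          rw [Subgroup.mul_mem_iff_of_index_two hidx]
          exact ⟨fun h => absurd h hpK, fun h => absurd h hrK⟩
        exact ⟨⟨p, hp⟩ * ⟨r, hr⟩, h3, by show p (r x) = p w; rw [hrx]⟩

theorem exists_fpf_invol (m : ℕ) :
    ∃ z : Equiv.Perm (Fin (2 * m)), z * z = 1 ∧ ∀ x, z x ≠ x := by
  classical
  let e : Fin m × Fin 2 ≃ Fin (2 * m) := (finProdFinEquiv).trans (finCongr (mul_comm m 2))
  let s : Equiv.Perm (Fin m × Fin 2) := Equiv.prodCongr (Equiv.refl _) (Equiv.swap 0 1)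
  have hss : ∀ p, s (s p) = p := by
    rintro ⟨i, j⟩
    simp [s]
  refine ⟨e.symm.trans (s.trans e), ?_, ?_⟩
  · apply Equiv.ext
    intro x
    show e (s (e.symm (e (s (e.symm x))))) = x
    rw [Equiv.symm_apply_apply, hss, Equiv.apply_symm_apply]
  · intro x hx
    have hx' : e (s (e.symm x)) = x := hx
    have h1 : s (e.symm x) = e.symm x := by
      apply e.injective
      rw [hx', Equiv.apply_symm_apply]
    have h2 : Equiv.swap (0 : Fin 2) 1 (e.symm x).2 = (e.symm x).2 := congrArg Prod.snd h1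
    revert h2
    generalize (e.symm x).2 = j
    fin_cases j <;> simp

/-- a Sylow 2-subgroup of the symmetric group of even degree centralises a fixed-point-free
involution -/
theorem exists_fpf_centralizing (m : ℕ) (hm : 1 ≤ m) (P : Sylow 2 (Equiv.Perm (Fin (2 * m)))) :
    ∃ z : Equiv.Perm (Fin (2 * m)), z * z = 1 ∧ (∀ x, z x ≠ x) ∧
      ∀ p ∈ (P : Subgroup (Equiv.Perm (Fin (2 * m)))), p * z = z * p := by
  classical
  have : Fact (Nat.Prime 2) := ⟨Nat.prime_two⟩
  obtain ⟨z₀, hz₀, hfp⟩ := exists_fpf_invol m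
  have hz1 : z₀ ≠ 1 := by
    intro h
    have := hfp ⟨0, by omega⟩
    rw [h] at this; exact this rfl
  have hord : orderOf z₀ = 2 := orderOf_eq_prime (by rw [pow_two]; exact hz₀) hz1
  obtain ⟨j, hj⟩ := Equiv.Perm.cycleType_prime_order (σ := z₀) (by rw [hord]; exact Nat.prime_two)
  rw [hord] at hj
  have hsupp : z₀.support = Finset.univ := by
    ext x; simp [hfp x]
  have hsum : z₀.cycleType.sum = 2 * m := by
    rw [Equiv.Perm.sum_cycleType, hsupp, Finset.card_univ, Fintype.card_fin]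
  have hj1 : j + 1 = m := by
    rw [hj, Multiset.sum_replicate, smul_eq_mul] at hsum
    omega
  have hcard : Nat.card (Subgroup.centralizer {z₀}) = 2 ^ m * m.factorial := by
    have htf : (Multiset.replicate m 2).toFinset = {2} := by
      ext x
      simp only [Multiset.mem_toFinset, Multiset.mem_replicate, Finset.mem_singleton]
      constructor
      · exact fun h => h.2
      · exact fun h => ⟨by omega, h⟩
    rw [Equiv.Perm.nat_card_centralizer, hsum, hj, hj1, htf, Finset.prod_singleton,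
      Multiset.count_replicate_self, Multiset.prod_replicate, Fintype.card_fin, Nat.sub_self,
      Nat.factorial_zero, one_mul]
  obtain ⟨C, hC⟩ : ∃ C : Subgroup (Equiv.Perm (Fin (2 * m))), C = Subgroup.centralizer {z₀} :=
    ⟨_, rfl⟩
  rw [← hC] at hcard
  have hidx : ¬ 2 ∣ C.index := by
    have h := C.card_mul_index
    rw [hcard, Nat.card_perm, Nat.card_fin] at h
    intro hdvd
    have hne : C.index ≠ 0 := by
      intro h0; rw [h0, mul_zero] at h; exact (Nat.factorial_ne_zero _) h.symm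
    have h1 : ((2 ^ m * m.factorial) * C.index).factorization 2 =
        (2 * m).factorial.factorization 2 := by rw [h]
    rw [Nat.factorization_mul (by positivity) hne,
      Nat.factorization_mul (by positivity) (Nat.factorial_ne_zero _)] at h1
    simp only [Finsupp.add_apply] at h1
    have h2 : (2 ^ m).factorization 2 = m := by
      rw [Nat.Prime.factorization_pow Nat.prime_two, Finsupp.single_eq_same]
    have h3 : (2 * m).factorial.factorization 2 = ee m + m := ee_two_mul m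
    have h4 : (m.factorial).factorization 2 = ee m := rfl
    have h5 : 1 ≤ C.index.factorization 2 :=
      (Nat.Prime.dvd_iff_one_le_factorization Nat.prime_two hne).mp hdvd
    omega
  have hP : IsPGroup 2 (P : Subgroup (Equiv.Perm (Fin (2 * m)))) := P.isPGroup'
  have hfix := hP.nonempty_fixed_point_of_prime_not_dvd_card (Equiv.Perm (Fin (2 * m)) ⧸ C) (by
    rw [← Subgroup.index_eq_card]; exact hidx)
  obtain ⟨q, hq⟩ := hfix
  obtain ⟨g, rfl⟩ := QuotientGroup.mk_surjective q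
  refine ⟨g * z₀ * g⁻¹, ?_, ?_, ?_⟩
  · calc g * z₀ * g⁻¹ * (g * z₀ * g⁻¹) = g * (z₀ * z₀) * g⁻¹ := by group
      _ = 1 := by rw [hz₀]; group
  · intro x hx
    apply hfp (g⁻¹ x)
    have h := congrArg (g⁻¹ : Equiv.Perm (Fin (2 * m))) hx
    simpa [Equiv.Perm.mul_apply] using h
  · intro p hp
    have h1 := hq ⟨p, hp⟩
    have h2 : ((p * g : Equiv.Perm (Fin (2 * m))) : Equiv.Perm (Fin (2 * m)) ⧸ C) =
        (g : Equiv.Perm (Fin (2 * m)) ⧸ C) := h1
    rw [QuotientGroup.eq] at h2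
    rw [hC, Subgroup.mem_centralizer_iff] at h2
    have h3 := h2 z₀ (Set.mem_singleton _)
    calc p * (g * z₀ * g⁻¹) = p * g * (z₀ * ((p * g)⁻¹ * g)) * g⁻¹ * p := by group
      _ = p * g * (((p * g)⁻¹ * g) * z₀) * g⁻¹ * p := by rw [h3]
      _ = g * z₀ * g⁻¹ * p := by group

end Cfsg.Agent.Lib.Helper8.SylMax
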