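import Mathlib
import Cfsg.Agent.Lib.Helper8.SylMaxB

set_option autoImplicit false

namespace Cfsg.Agent.Lib.Helper8.SylMax

open Cfsg.Agent.Lib.Helper8.NilNum

theorem two_overgroups_even (m : ℕ) (hm : 3 ≤ m) (P : Sylow 2 (Equiv.Perm (Fin (2 * m)))) :
    ∃ H₁ H₂ : Subgroup (Equiv.Perm (Fin (2 * m))),
      (P : Subgroup (Equiv.Perm (Fin (2 * m)))) ≤ H₁ ∧
      (P : Subgroup (Equiv.Perm (Fin (2 * m)))) ≤ H₂ ∧ H₁ ≠ ⊤ ∧ H₂ ≠ ⊤ ∧ H₁ ⊔ H₂ = ⊤ := by
  classical
  obtain ⟨z, hz, hfp, hcomm⟩ := exists_fpf_centralizing m (by omega) P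
  have hzz : ∀ a, z (z a) = a := by
    intro a
    have := congrArg (fun f : Equiv.Perm (Fin (2 * m)) => f a) hz
    simpa using this
  obtain ⟨Δ, ⟨x, hx⟩, ⟨y, hy⟩, hPΔ⟩ : ∃ Δ : Set (Fin (2 * m)), (∃ x, x ∈ Δ) ∧ (∃ y, y ∉ Δ) ∧
      (P : Subgroup (Equiv.Perm (Fin (2 * m)))) ≤ blockStab Δ := by
    let x0 : Fin (2 * m) := ⟨0, by omega⟩
    by_cases htr : ∀ y : Fin (2 * m), ∃ p ∈ (P : Subgroup (Equiv.Perm (Fin (2 * m)))), p x0 = y
    · obtain ⟨Δ, h1, h2, h3⟩ := exists_block (P : Subgroup (Equiv.Perm (Fin (2 * m))))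
        P.isPGroup' x0 htr ⟨⟨1, by omega⟩, by simp [x0, Fin.ext_iff]⟩
      exact ⟨Δ, ⟨x0, h1⟩, h2, h3⟩
    · push Not at htr
      obtain ⟨y, hy⟩ := htr
      refine ⟨{w | ∃ p ∈ (P : Subgroup (Equiv.Perm (Fin (2 * m)))), p x0 = w},
        ⟨x0, 1, Subgroup.one_mem _, rfl⟩, ⟨y, fun ⟨p, hp, h⟩ => hy p hp h⟩, ?_⟩
      intro p hp
      rw [mem_blockStab]
      left
      intro w
      constructor
      · rintro ⟨q, hq, hqx⟩
        refine ⟨p⁻¹ * q, Subgroup.mul_mem _ (Subgroup.inv_mem _ hp) hq, ?_⟩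
        rw [Equiv.Perm.mul_apply, hqx]; simp
      · rintro ⟨q, hq, rfl⟩
        exact ⟨p * q, Subgroup.mul_mem _ hp hq, rfl⟩
  have hxy : x ≠ y := fun h => hy (h ▸ hx)
  refine ⟨blockStab Δ, Subgroup.centralizer {z}, hPΔ, ?_, ?_, ?_, ?_⟩
  · intro p hp
    rw [Subgroup.mem_centralizer_iff]
    intro h hh
    rw [Set.mem_singleton_iff] at hh
    rw [hh]; exact (hcomm p hp).symm
  · exact blockStab_ne_top (by omega) Δ x y hx hy
  · intro htop
    obtain ⟨w, hw⟩ := exists_not_mem ({x, z x} : Finset (Fin (2 * m)))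
      (lt_of_le_of_lt Finset.card_le_two (by omega))
    simp only [Finset.mem_insert, Finset.mem_singleton, not_or] at hw
    have hmem : Equiv.swap x w ∈ Subgroup.centralizer {z} := htop ▸ Subgroup.mem_top _
    rw [Subgroup.mem_centralizer_iff] at hmem
    have h := hmem z (Set.mem_singleton _)
    have h' := congrArg (fun f : Equiv.Perm (Fin (2 * m)) => f x) h
    simp only [Equiv.Perm.mul_apply, Equiv.swap_apply_left] at h'
    rw [Equiv.swap_apply_of_ne_of_ne (hfp x) (fun e => hw.2 e.symm)] at h'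
    exact hw.1 (z.injective h')
  · -- the mixing element
    obtain ⟨x', y', hx', hy', hne⟩ : ∃ x' y', x' ∈ Δ ∧ y' ∉ Δ ∧ y' ≠ z x' := by
      by_cases hyz : y = z x
      · obtain ⟨w, hw⟩ := exists_not_mem ({x, y} : Finset (Fin (2 * m)))
          (lt_of_le_of_lt Finset.card_le_two (by omega))
        simp only [Finset.mem_insert, Finset.mem_singleton, not_or] at hw
        by_cases hwΔ : w ∈ Δ
        · refine ⟨w, y, hwΔ, hy, ?_⟩
          intro h
          rw [hyz] at h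
          exact hw.1 (z.injective h).symm
        · refine ⟨x, w, hx, hwΔ, ?_⟩
          rw [← hyz]; exact hw.2
      · exact ⟨x, y, hx, hy, hyz⟩
    have hx'y' : x' ≠ y' := fun h => hy' (h ▸ hx')
    have h1 : x' ≠ z x' := fun h => hfp x' h.symm
    have h2 : x' ≠ z y' := by
      intro h
      apply hne
      rw [h, hzz]
    have h3 : y' ≠ z y' := fun h => hfp y' h.symm
    have h4 : z x' ≠ z y' := fun h => hx'y' (z.injective h)
    obtain ⟨g, hgdef⟩ : ∃ g : Equiv.Perm (Fin (2 * m)),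
        g = Equiv.swap x' y' * Equiv.swap (z x') (z y') := ⟨_, rfl⟩
    have hgC : g ∈ Subgroup.centralizer {z} := by
      rw [Subgroup.mem_centralizer_iff]
      intro h hh
      rw [Set.mem_singleton_iff] at hh
      rw [hh, hgdef]
      have hc : Equiv.swap x' y' * Equiv.swap (z x') (z y') =
          Equiv.swap (z x') (z y') * Equiv.swap x' y' :=
        (Equiv.Perm.disjoint_swap_swap (by simp [hx'y', h1, h2, hne, h3, h4])).commute.eq
      have e1 := Equiv.mul_swap_eq_swap_mul z x' y'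
      have e2 := Equiv.mul_swap_eq_swap_mul z (z x') (z y')
      rw [hzz, hzz] at e2
      calc z * (Equiv.swap x' y' * Equiv.swap (z x') (z y'))
          = (z * Equiv.swap x' y') * Equiv.swap (z x') (z y') := by group
        _ = Equiv.swap (z x') (z y') * (z * Equiv.swap (z x') (z y')) := by rw [e1]; group
        _ = Equiv.swap (z x') (z y') * Equiv.swap x' y' * z := by rw [e2]; group
        _ = Equiv.swap x' y' * Equiv.swap (z x') (z y') * z := by rw [hc]
    have hgx : g x' = y' := by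
      rw [hgdef, Equiv.Perm.mul_apply, Equiv.swap_apply_of_ne_of_ne h1 h2, Equiv.swap_apply_left]
    obtain ⟨w, hw⟩ := exists_not_mem ({x', y', z x', z y'} : Finset (Fin (2 * m)))
      (lt_of_le_of_lt Finset.card_le_four (by omega))
    simp only [Finset.mem_insert, Finset.mem_singleton, not_or] at hw
    have hgw : g w = w := by
      rw [hgdef, Equiv.Perm.mul_apply, Equiv.swap_apply_of_ne_of_ne hw.2.2.1 hw.2.2.2,
        Equiv.swap_apply_of_ne_of_ne hw.1 hw.2.1]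
    apply top_of_swaps (blockStab Δ ⊔ Subgroup.centralizer {z}) Δ
      (fun a b ha hb => (le_sup_left : blockStab Δ ≤ _)
        (swap_mem_blockStab Δ a b ⟨fun _ => hb, fun _ => ha⟩))
      (fun a b ha hb => (le_sup_left : blockStab Δ ≤ _)
        (swap_mem_blockStab Δ a b ⟨fun h => absurd h ha, fun h => absurd h hb⟩))
      g ((le_sup_right : Subgroup.centralizer {z} ≤ _) hgC) x' w hx' (by rw [hgx]; exact hy') hgw

theorem two_overgroups_odd (n : ℕ) (hn : 5 ≤ n) (hodd : Odd n)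
    (hnot : ¬ ∃ k, 2 ≤ k ∧ n = 2 ^ k + 1) (P : Sylow 2 (Equiv.Perm (Fin n))) :
    ∃ H₁ H₂ : Subgroup (Equiv.Perm (Fin n)),
      (P : Subgroup (Equiv.Perm (Fin n))) ≤ H₁ ∧
      (P : Subgroup (Equiv.Perm (Fin n))) ≤ H₂ ∧ H₁ ≠ ⊤ ∧ H₂ ≠ ⊤ ∧ H₁ ⊔ H₂ = ⊤ := by
  classical
  have : Fact (Nat.Prime 2) := ⟨Nat.prime_two⟩
  obtain ⟨x₀, hx₀⟩ := fixed_point_of_odd hodd (P : Subgroup (Equiv.Perm (Fin n))) P.isPGroup'
  obtain ⟨x₁, hx₁⟩ := exists_not_mem ({x₀} : Finset (Fin n)) (by simp; omega)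
  rw [Finset.mem_singleton] at hx₁
  obtain ⟨s, hsdef⟩ : ∃ s : Set (Fin n),
      s = {w | ∃ p ∈ (P : Subgroup (Equiv.Perm (Fin n))), p x₁ = w} := ⟨_, rfl⟩
  have hx₀s : x₀ ∉ s := by
    rw [hsdef]
    rintro ⟨p, hp, hpy⟩
    apply hx₁
    have := hx₀ p hp
    exact p.injective (hpy.trans this.symm)
  have hx₁s : x₁ ∈ s := by
    rw [hsdef]; exact ⟨1, Subgroup.one_mem _, rfl⟩
  by_cases hall : ∀ w, w ≠ x₀ → w ∈ s
  · exfalso
    apply hnot
    have hs_eq : s = {x₀}ᶜ := by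
      ext w
      simp only [Set.mem_compl_iff, Set.mem_singleton_iff]
      exact ⟨fun h e => hx₀s (e ▸ h), hall w⟩
    have horb : s = MulAction.orbit (P : Subgroup (Equiv.Perm (Fin n))) x₁ := by
      rw [hsdef]
      ext w; constructor
      · rintro ⟨p, hp, rfl⟩; exact ⟨⟨p, hp⟩, rfl⟩
      · rintro ⟨⟨p, hp⟩, rfl⟩; exact ⟨p, hp, rfl⟩
    obtain ⟨k, hk⟩ := P.isPGroup'.card_orbit x₁
    have hc : Nat.card s = n - 1 := by
      rw [Nat.card_coe_set_eq, hs_eq, Set.ncard_compl, Set.ncard_singleton, Nat.card_fin]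
    rw [← horb, hc] at hk
    refine ⟨k, ?_, by omega⟩
    by_contra hk2
    have h01 : k = 0 ∨ k = 1 := by omega
    rcases h01 with rfl | rfl <;> norm_num at hk <;> omega
  · push Not at hall
    obtain ⟨w, hw0, hws⟩ := hall
    refine ⟨MulAction.stabilizer (Equiv.Perm (Fin n)) x₀, blockStab s, ?_, ?_, ?_, ?_, ?_⟩
    · intro p hp
      rw [MulAction.mem_stabilizer_iff]
      exact hx₀ p hp
    · intro p hp
      rw [mem_blockStab]
      left
      intro v
      rw [hsdef]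
      constructor
      · rintro ⟨q, hq, hqx⟩
        refine ⟨p⁻¹ * q, Subgroup.mul_mem _ (Subgroup.inv_mem _ hp) hq, ?_⟩
        rw [Equiv.Perm.mul_apply, hqx]; simp
      · rintro ⟨q, hq, rfl⟩
        exact ⟨p * q, Subgroup.mul_mem _ hp hq, rfl⟩
    · intro htop
      have hmem : Equiv.swap x₀ x₁ ∈ MulAction.stabilizer (Equiv.Perm (Fin n)) x₀ :=
        htop ▸ Subgroup.mem_top _
      rw [MulAction.mem_stabilizer_iff] at hmem
      have h2 : Equiv.swap x₀ x₁ x₀ = x₀ := hmem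
      rw [Equiv.swap_apply_left] at h2
      exact hx₁ h2
    · exact blockStab_ne_top (by omega) s x₁ x₀ hx₁s hx₀s
    · apply top_of_stab_of_move x₀ ?_ _ le_sup_left (Equiv.swap x₀ w)
        ((le_sup_right : blockStab s ≤ _)
          (swap_mem_blockStab s x₀ w ⟨fun h => absurd h hx₀s, fun h => absurd h hws⟩))
      · show Equiv.swap x₀ w x₀ ≠ x₀
        rw [Equiv.swap_apply_left]; exact hw0
      · intro u v hu hv
        refine ⟨Equiv.swap u v, ?_, ?_⟩
        · show Equiv.swap u v x₀ = x₀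
          exact Equiv.swap_apply_of_ne_of_ne hu.symm hv.symm
        · show Equiv.swap u v u = v
          exact Equiv.swap_apply_left u v

theorem two_overgroups (n : ℕ) (hn : 5 ≤ n) (hnot : ¬ ∃ k, 2 ≤ k ∧ n = 2 ^ k + 1)
    (P : Sylow 2 (Equiv.Perm (Fin n))) :
    ∃ H₁ H₂ : Subgroup (Equiv.Perm (Fin n)),
      (P : Subgroup (Equiv.Perm (Fin n))) ≤ H₁ ∧
      (P : Subgroup (Equiv.Perm (Fin n))) ≤ H₂ ∧ H₁ ≠ ⊤ ∧ H₂ ≠ ⊤ ∧ H₁ ⊔ H₂ = ⊤ := by
  rcases Nat.even_or_odd' n with ⟨m, rfl | rfl⟩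
  · exact two_overgroups_even m (by omega) P
  · exact two_overgroups_odd (2 * m + 1) hn ⟨m, rfl⟩ hnot P

/-- from generation of the symmetric group to generation of the alternating group -/
theorem alt_le_of_odd_mem {Ω : Type*} [DecidableEq Ω] [Fintype Ω]
    (H₁ H₂ : Subgroup (Equiv.Perm Ω)) (t : Equiv.Perm Ω) (ht1 : t ∈ H₁) (ht2 : t ∈ H₂)
    (hodd : Equiv.Perm.sign t = -1) (htop : H₁ ⊔ H₂ = ⊤) :
    alternatingGroup Ω ≤ (H₁ ⊓ alternatingGroup Ω) ⊔ (H₂ ⊓ alternatingGroup Ω) := by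
  obtain ⟨K, hK⟩ : ∃ K : Subgroup (Equiv.Perm Ω),
      K = (H₁ ⊓ alternatingGroup Ω) ⊔ (H₂ ⊓ alternatingGroup Ω) := ⟨_, rfl⟩
  rw [← hK]
  have le1 : H₁ ⊓ alternatingGroup Ω ≤ K := hK ▸ le_sup_left
  have le2 : H₂ ⊓ alternatingGroup Ω ≤ K := hK ▸ le_sup_right
  have hKA : K ≤ alternatingGroup Ω := hK ▸ sup_le inf_le_right inf_le_right
  have hconj : ∀ c, c ∈ H₁ → c ∈ H₂ → ∀ k ∈ K, c * k * c⁻¹ ∈ K := by
    intro c hc1 hc2
    have hle : K ≤ K.comap (MulAut.conj c).toMonoidHom := by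
      rw [hK]
      apply sup_le
      · intro h hh
        rw [Subgroup.mem_comap]
        show c * h * c⁻¹ ∈ (H₁ ⊓ alternatingGroup Ω) ⊔ (H₂ ⊓ alternatingGroup Ω)
        apply (le_sup_left : H₁ ⊓ alternatingGroup Ω ≤ _)
        refine Subgroup.mem_inf.mpr ⟨H₁.mul_mem (H₁.mul_mem hc1 (Subgroup.mem_inf.mp hh).1) (H₁.inv_mem hc1), ?_⟩
        have := (Subgroup.mem_inf.mp hh).2
        rw [Equiv.Perm.mem_alternatingGroup] at this ⊢
        rw [map_mul, map_mul, this, mul_one, map_inv, mul_inv_cancel]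
      · intro h hh
        rw [Subgroup.mem_comap]
        show c * h * c⁻¹ ∈ (H₁ ⊓ alternatingGroup Ω) ⊔ (H₂ ⊓ alternatingGroup Ω)
        apply (le_sup_right : H₂ ⊓ alternatingGroup Ω ≤ _)
        refine Subgroup.mem_inf.mpr ⟨H₂.mul_mem (H₂.mul_mem hc2 (Subgroup.mem_inf.mp hh).1) (H₂.inv_mem hc2), ?_⟩
        have := (Subgroup.mem_inf.mp hh).2
        rw [Equiv.Perm.mem_alternatingGroup] at this ⊢
        rw [map_mul, map_mul, this, mul_one, map_inv, mul_inv_cancel]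
    intro k hk
    exact hle hk
  have ht2K : t * t ∈ K := by
    apply le1
    refine Subgroup.mem_inf.mpr ⟨H₁.mul_mem ht1 ht1, ?_⟩
    rw [Equiv.Perm.mem_alternatingGroup, map_mul, hodd]; simp
  have hti2K : t⁻¹ * t⁻¹ ∈ K := by
    have := K.inv_mem ht2K
    rw [mul_inv_rev] at this
    exact this
  have key : ∀ σ : Equiv.Perm Ω, σ ∈ K ∨ σ * t ∈ K := by
    intro σ
    have hσ : σ ∈ Subgroup.closure ((H₁ : Set (Equiv.Perm Ω)) ∪ H₂) := by
      rw [Subgroup.closure_union, Subgroup.closure_eq, Subgroup.closure_eq, htop]; trivial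
    induction hσ using Subgroup.closure_induction with
    | mem x hx =>
      rcases hx with hx | hx
      · by_cases hs : Equiv.Perm.sign x = 1
        · left; exact le1 (Subgroup.mem_inf.mpr ⟨hx, Equiv.Perm.mem_alternatingGroup.mpr hs⟩)
        · right
          apply le1
          refine Subgroup.mem_inf.mpr ⟨H₁.mul_mem hx ht1, ?_⟩
          rw [Equiv.Perm.mem_alternatingGroup, map_mul, hodd]
          rcases Int.units_eq_one_or (Equiv.Perm.sign x) with h | h
          · exact absurd h hs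
          · rw [h]; simp
      · by_cases hs : Equiv.Perm.sign x = 1
        · left; exact le2 (Subgroup.mem_inf.mpr ⟨hx, Equiv.Perm.mem_alternatingGroup.mpr hs⟩)
        · right
          apply le2
          refine Subgroup.mem_inf.mpr ⟨H₂.mul_mem hx ht2, ?_⟩
          rw [Equiv.Perm.mem_alternatingGroup, map_mul, hodd]
          rcases Int.units_eq_one_or (Equiv.Perm.sign x) with h | h
          · exact absurd h hs
          · rw [h]; simp
    | one => left; exact K.one_mem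
    | mul x y hx hy ihx ihy =>
      rcases ihx with hx1 | hx1 <;> rcases ihy with hy1 | hy1
      · left; exact K.mul_mem hx1 hy1
      · right; rw [mul_assoc]; exact K.mul_mem hx1 hy1
      · right
        have h := hconj t⁻¹ (H₁.inv_mem ht1) (H₂.inv_mem ht2) y hy1
        have e : x * y * t = (x * t) * (t⁻¹ * y * t⁻¹⁻¹) := by group
        rw [e]; exact K.mul_mem hx1 h
      · left
        have h := hconj t⁻¹ (H₁.inv_mem ht1) (H₂.inv_mem ht2) (y * t) hy1
        have e : x * y = (x * t) * (t⁻¹ * (y * t) * t⁻¹⁻¹) * (t⁻¹ * t⁻¹) := by group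
        rw [e]; exact K.mul_mem (K.mul_mem hx1 h) hti2K
    | inv x hx ih =>
      rcases ih with h1 | h1
      · left; exact K.inv_mem h1
      · right
        have h := hconj t ht1 ht2 _ (K.inv_mem h1)
        have e : x⁻¹ * t = (t * (x * t)⁻¹ * t⁻¹) * (t * t) := by group
        rw [e]; exact K.mul_mem h ht2K
  intro σ hσ
  rcases key σ with h | h
  · exact h
  · exfalso
    have h1 := hKA h
    rw [Equiv.Perm.mem_alternatingGroup] at h1 hσ
    rw [map_mul, hσ, hodd] at h1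
    simp at h1

end Cfsg.Agent.Lib.Helper8.SylMax
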