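import Mathlib
import Cfsg.Agent.Lib.Helper8.SylMaxE

set_option autoImplicit false

namespace Cfsg.Agent.Lib.Helper8.SylMax

open Cfsg.Agent.Lib.Helper8.NilNum

/-- every overgroup of a Sylow 2-subgroup of the alternating group of degree `2^k+1` fixes the
point or contains the alternating group -/
theorem alt_core (n k : ℕ) (hk : 2 ≤ k) (hn : n = 2 ^ k + 1)
    (R : Sylow 2 (alternatingGroup (Fin n))) :
    ∃ x₀ : Fin n,
      (∀ g ∈ (R : Subgroup (alternatingGroup (Fin n))), (g : Equiv.Perm (Fin n)) x₀ = x₀) ∧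
      ∀ M : Subgroup (Equiv.Perm (Fin n)),
        (∀ g ∈ (R : Subgroup (alternatingGroup (Fin n))), (g : Equiv.Perm (Fin n)) ∈ M) →
        (∀ g ∈ M, g x₀ = x₀) ∨ alternatingGroup (Fin n) ≤ M := by
  classical
  have hp2 : Fact (Nat.Prime 2) := ⟨Nat.prime_two⟩
  have hn5 : 5 ≤ n := by
    have : 2 ^ 2 ≤ 2 ^ k := Nat.pow_le_pow_right (by norm_num) hk
    norm_num at this
    omega
  have hodd : Odd n := odd_of_eq n k (by omega) hn
  obtain ⟨R', hR'⟩ : ∃ R' : Subgroup (Equiv.Perm (Fin n)),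
      R' = (R : Subgroup (alternatingGroup (Fin n))).map (alternatingGroup (Fin n)).subtype :=
    ⟨_, rfl⟩
  have hR'mem : ∀ g ∈ (R : Subgroup (alternatingGroup (Fin n))),
      (g : Equiv.Perm (Fin n)) ∈ R' := by
    intro g hg; rw [hR']; exact Subgroup.mem_map_of_mem _ hg
  have hR'A : ∀ σ ∈ R', ∃ h : σ ∈ alternatingGroup (Fin n),
      (⟨σ, h⟩ : alternatingGroup (Fin n)) ∈ (R : Subgroup (alternatingGroup (Fin n))) := by
    intro σ hσ
    rw [hR', Subgroup.mem_map] at hσ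
    obtain ⟨g, hg, rfl⟩ := hσ
    exact ⟨g.2, hg⟩
  have hR'p : IsPGroup 2 R' := by rw [hR']; exact R.isPGroup'.map _
  obtain ⟨P, hRP⟩ := hR'p.exists_le_sylow
  obtain ⟨x₀, hx₀⟩ := fixed_point_of_odd hodd (P : Subgroup (Equiv.Perm (Fin n))) P.isPGroup'
  have htrP := fun y y' hy hy' => sylow_trans' n k (by omega) hn P x₀ hx₀ y y' hy hy'
  obtain ⟨u, v, huv, hswap⟩ := exists_swap_mem (by omega) P
  have heven : ∀ p ∈ (P : Subgroup (Equiv.Perm (Fin n))), Equiv.Perm.sign p = 1 → p ∈ R' := by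
    intro p hp hs
    have hQ : IsPGroup 2 ((P : Subgroup (Equiv.Perm (Fin n))).comap
        (alternatingGroup (Fin n)).subtype) :=
      P.isPGroup'.comap_of_injective _ (Subgroup.subtype_injective _)
    have hle : (R : Subgroup (alternatingGroup (Fin n))) ≤
        (P : Subgroup (Equiv.Perm (Fin n))).comap (alternatingGroup (Fin n)).subtype := by
      intro g hg
      rw [Subgroup.mem_comap]
      exact hRP (hR'mem g hg)
    have heq := R.is_maximal' hQ hle
    have hmem : (⟨p, Equiv.Perm.mem_alternatingGroup.mpr hs⟩ : alternatingGroup (Fin n)) ∈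
        (P : Subgroup (Equiv.Perm (Fin n))).comap (alternatingGroup (Fin n)).subtype := by
      rw [Subgroup.mem_comap]; exact hp
    rw [heq] at hmem
    exact hR'mem _ hmem
  obtain ⟨y, hy⟩ := exists_not_mem ({x₀, u, v} : Finset (Fin n))
    (lt_of_le_of_lt Finset.card_le_three (by omega))
  simp only [Finset.mem_insert, Finset.mem_singleton, not_or] at hy
  have hty : Equiv.swap u v y = y := Equiv.swap_apply_of_ne_of_ne hy.2.1 hy.2.2
  have hsw : Equiv.Perm.sign (Equiv.swap u v) = -1 := Equiv.Perm.sign_swap huv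
  have reach : ∀ y', y' ≠ x₀ → ∃ r ∈ R', r y = y' := by
    intro y' hy'
    obtain ⟨p, hp, hpy⟩ := htrP y y' hy.1 hy'
    rcases Int.units_eq_one_or (Equiv.Perm.sign p) with hs | hs
    · exact ⟨p, heven p hp hs, hpy⟩
    · refine ⟨p * Equiv.swap u v, heven _ (Subgroup.mul_mem _ hp hswap)
        (by rw [map_mul, hs, hsw]; simp), ?_⟩
      rw [Equiv.Perm.mul_apply, hty, hpy]
  have hx₀R : ∀ σ ∈ R', σ x₀ = x₀ := fun σ hσ => hx₀ σ (hRP hσ)
  have htrR : ∀ y₁ y₂, y₁ ≠ x₀ → y₂ ≠ x₀ → ∃ r ∈ R', r y₁ = y₂ := by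
    intro y₁ y₂ h1 h2
    obtain ⟨r₁, hr₁, e₁⟩ := reach y₁ h1
    obtain ⟨r₂, hr₂, e₂⟩ := reach y₂ h2
    refine ⟨r₂ * r₁⁻¹, R'.mul_mem hr₂ (R'.inv_mem hr₁), ?_⟩
    rw [Equiv.Perm.mul_apply, ← e₁]; simp [e₂]
  -- the Klein four-group
  have ne : ∀ i j : ℕ, ∀ (hi : i < n) (hj : j < n), i ≠ j → (⟨i, hi⟩ : Fin n) ≠ ⟨j, hj⟩ :=
    fun i j hi hj h e => h (congrArg Fin.val e)
  obtain ⟨a0, ha0⟩ : ∃ a0 : Fin n, a0 = ⟨0, by omega⟩ := ⟨_, rfl⟩
  obtain ⟨b0, hb0⟩ : ∃ b0 : Fin n, b0 = ⟨1, by omega⟩ := ⟨_, rfl⟩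
  obtain ⟨c0, hc0⟩ : ∃ c0 : Fin n, c0 = ⟨2, by omega⟩ := ⟨_, rfl⟩
  obtain ⟨d0, hd0⟩ : ∃ d0 : Fin n, d0 = ⟨3, by omega⟩ := ⟨_, rfl⟩
  have hab : a0 ≠ b0 := by rw [ha0, hb0]; exact ne _ _ _ _ (by norm_num)
  have hac : a0 ≠ c0 := by rw [ha0, hc0]; exact ne _ _ _ _ (by norm_num)
  have had : a0 ≠ d0 := by rw [ha0, hd0]; exact ne _ _ _ _ (by norm_num)
  have hbc : b0 ≠ c0 := by rw [hb0, hc0]; exact ne _ _ _ _ (by norm_num)
  have hbd : b0 ≠ d0 := by rw [hb0, hd0]; exact ne _ _ _ _ (by norm_num)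
  have hcd : c0 ≠ d0 := by rw [hc0, hd0]; exact ne _ _ _ _ (by norm_num)
  obtain ⟨V, hVsq, hVsign, hV4⟩ := V4_base a0 b0 c0 d0 hab hac had hbc hbd hcd
  have hV'p : IsPGroup 2 (V.comap (alternatingGroup (Fin n)).subtype) := by
    apply isPGroup_of_sq
    intro x hx
    rw [Subgroup.mem_comap] at hx
    exact Subtype.ext (hVsq _ hx)
  obtain ⟨g, hg⟩ := sylow_conj_mem R _ hV'p
  have hconj : ∀ σ ∈ V, (g : Equiv.Perm (Fin n)) * σ * (g : Equiv.Perm (Fin n))⁻¹ ∈ R' := by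
    intro σ hσ
    have hσA : σ ∈ alternatingGroup (Fin n) :=
      Equiv.Perm.mem_alternatingGroup.mpr (hVsign σ hσ)
    have h := hg ⟨σ, hσA⟩ (by rw [Subgroup.mem_comap]; exact hσ)
    exact hR'mem _ h
  obtain ⟨T, hTdef⟩ : ∃ T : Finset (Fin n),
      T = ({a0, b0, c0, d0} : Finset (Fin n)).image (g : Equiv.Perm (Fin n)) := ⟨_, rfl⟩
  have hT4 : V4in R' T := by
    rw [hTdef]; exact V4in_image V R' _ hV4 (g : Equiv.Perm (Fin n)) hconj
  have hTcard : T.card = 4 := by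
    rw [hTdef, Finset.card_image_of_injective _ (g : Equiv.Perm (Fin n)).injective,
      Finset.card_insert_of_notMem (by simp [hab, hac, had]),
      Finset.card_insert_of_notMem (by simp [hbc, hbd]), Finset.card_pair hcd]
  refine ⟨x₀, fun g hg => hx₀R _ (hR'mem g hg), ?_⟩
  intro M hRM
  have hR'M : R' ≤ M := by
    intro σ hσ
    obtain ⟨h, hh⟩ := hR'A σ hσ
    exact hRM _ hh
  by_cases hM : ∀ g ∈ M, g x₀ = x₀
  · exact Or.inl hM
  right
  have h2t := two_trans M R' hR'M x₀ hx₀R htrR hM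
  have hprim : MulAction.IsPreprimitive M (Fin n) :=
    MulAction.isPreprimitive_of_is_two_pretransitive
      (MulAction.is_two_pretransitive_iff.mpr (fun {a b c d} hab hcd => by
        obtain ⟨g, hg, h1, h2⟩ := h2t a b c d hab hcd
        exact ⟨⟨g, hg⟩, h1, h2⟩))
  have hT4M : V4in M T := fun a b c d ha hb hc hd n1 n2 n3 n4 n5 n6 =>
    hR'M (hT4 a b c d ha hb hc hd n1 n2 n3 n4 n5 n6)
  obtain ⟨σ, hσM, h3⟩ : ∃ σ ∈ M, σ.IsThreeCycle := by
    by_contra hno
    push Not at hno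
    obtain ⟨F, hF⟩ : ∃ F : Finset (Finset (Fin n)),
        F = Finset.univ.filter (fun S => ∃ g ∈ M, S = T.image g) := ⟨_, rfl⟩
    have memF : ∀ S, S ∈ F ↔ ∃ g ∈ M, S = T.image g := by
      intro S; rw [hF, Finset.mem_filter]; simp
    have hTF : T ∈ F := (memF T).mpr ⟨1, M.one_mem, by ext x; simp⟩
    have h4 : ∀ S ∈ F, S.card = 4 := by
      intro S hS
      obtain ⟨g, _, rfl⟩ := (memF S).mp hS
      rw [Finset.card_image_of_injective _ g.injective, hTcard]
    have hV : ∀ S ∈ F, V4in M S := by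
      intro S hS
      obtain ⟨g, hg, rfl⟩ := (memF S).mp hS
      exact V4in_image M M T hT4M g (fun σ hσ => M.mul_mem (M.mul_mem hg hσ) (M.inv_mem hg))
    have hint : ∀ S ∈ F, ∀ S' ∈ F, S ≠ S' → (S ∩ S').card = 0 ∨ (S ∩ S').card = 2 := by
      intro S hS S' hS' hne
      have hle : (S ∩ S').card ≤ 4 :=
        (Finset.card_le_card Finset.inter_subset_left).trans (h4 S hS).le
      have h13 : ¬ ((S ∩ S').card = 1 ∨ (S ∩ S').card = 3) := by
        intro h
        obtain ⟨σ, hσ, h3⟩ :=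
          three_cycle_of_V4 M S S' (hV S hS) (hV S' hS') (h4 S hS) (h4 S' hS') h
        exact hno σ hσ h3
      have h4' : (S ∩ S').card ≠ 4 := by
        intro h
        have e1 : S ∩ S' = S :=
          Finset.eq_of_subset_of_card_le Finset.inter_subset_left (by rw [h, h4 S hS])
        have e2 : S ∩ S' = S' :=
          Finset.eq_of_subset_of_card_le Finset.inter_subset_right (by rw [h, h4 S' hS'])
        exact hne (e1.symm.trans e2)
      omega
    have hle : ∀ x y x' y' : Fin n, x ≠ y → x' ≠ y' →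
        (F.filter (fun S => x ∈ S ∧ y ∈ S)).card ≤
          (F.filter (fun S => x' ∈ S ∧ y' ∈ S)).card := by
      intro x y x' y' hxy hxy'
      obtain ⟨g, hg, h1, h2⟩ := h2t x y x' y' hxy hxy'
      apply Finset.card_le_card_of_injOn (fun S => S.image g)
      · intro S hS
        rw [Finset.mem_coe, Finset.mem_filter] at hS ⊢
        obtain ⟨hSF, hx, hy⟩ := hS
        obtain ⟨h, hh, rfl⟩ := (memF S).mp hSF
        refine ⟨(memF _).mpr ⟨g * h, M.mul_mem hg hh, ?_⟩, ?_, ?_⟩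
        · show (T.image h).image g = T.image (g ∘ h)
          exact Finset.image_image
        · rw [← h1]; exact Finset.mem_image_of_mem _ hx
        · rw [← h2]; exact Finset.mem_image_of_mem _ hy
      · exact (Finset.image_injective g.injective).injOn
    obtain ⟨lam, hlam0⟩ : ∃ lam, lam = (F.filter (fun S => u ∈ S ∧ v ∈ S)).card := ⟨_, rfl⟩
    have hlam : ∀ x y : Fin n, x ≠ y → (F.filter (fun S => x ∈ S ∧ y ∈ S)).card = lam := by
      intro x y hxy
      rw [hlam0]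
      exact le_antisymm (hle x y u v hxy huv) (hle u v x y huv hxy)
    have hc1 := design_count F T hTF h4 (fun S hS hne => hint S hS T hTF hne) lam hlam
    have hc2 := design_bound F h4 hint lam u v huv (hlam u v huv)
    rw [Fintype.card_fin] at hc1 hc2
    have hN : n = 5 ∨ 9 ≤ n := by
      rcases Nat.eq_or_lt_of_le hk with h | h
      · left; rw [hn, ← h]; norm_num
      · right
        have h8 : 2 ^ 3 ≤ 2 ^ k := Nat.pow_le_pow_right (by norm_num) h
        norm_num at h8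
        omega
    exact design_false n lam hc1 hc2 hN
  exact Equiv.Perm.alternatingGroup_le_of_isPreprimitive_of_isThreeCycle_mem hprim h3 hσM

end Cfsg.Agent.Lib.Helper8.SylMax
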