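import Mathlib

set_option autoImplicit false

namespace Cfsg.Agent.Lib.Helper8.TrCtl

open scoped IsMulCommutative

theorem transfer_eq_pow_of {G : Type*} [Group G] {H : Subgroup G} {A : Type*} [Group A]
    [IsMulCommutative A] [H.FiniteIndex] (ϕ : H →* A) (x : H)
    (key : ∀ (n : ℕ) (a : G) (h : a⁻¹ * (x : G) ^ n * a ∈ H),
      ϕ ⟨a⁻¹ * (x : G) ^ n * a, h⟩ = ϕ (x ^ n)) :
    MonoidHom.transfer ϕ (x : G) = ϕ x ^ H.index := by
  have : Fintype (Quotient (MulAction.orbitRel (Subgroup.zpowers (x : G)) (G ⧸ H))) :=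
    Fintype.ofFinite _
  rw [Subgroup.index_eq_sum_minimalPeriod H (x : G), ← Finset.prod_pow_eq_pow_sum,
    MonoidHom.transfer_eq_prod_quotient_orbitRel_zpowers_quot]
  apply Finset.prod_congr rfl
  intro q _
  rw [key, map_pow]

theorem eq_one_of_pow_coprime {A : Type*} [Group A] {a : A} {m n : ℕ} (hm : a ^ m = 1)
    (hn : a ^ n = 1) (h : Nat.Coprime m n) : a = 1 := by
  have := pow_gcd_eq_one.mpr ⟨hm, hn⟩
  rw [Nat.Coprime.gcd_eq_one h, pow_one] at this
  exact this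

end Cfsg.Agent.Lib.Helper8.TrCtl
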